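import Mathlib

/-!
# An integer 8 x 8 matrix of finite order with an "eigenvalue of order 16 modulo `ℓ`" satisfies `M ^ 8 = - 1`
-/

set_option autoImplicit false

namespace Cfsg.Agent.H189.PhiSixteen

open Matrix Polynomial

abbrev Mt (R : Type*) := Matrix (Fin 8) (Fin 8) R

theorem cyc16 : cyclotomic 16 ℚ = X ^ 8 + 1 := by
  have h := cyclotomic_prime_pow_eq_geom_sum (R := ℚ) (n := 3) Nat.prime_two
  norm_num [Finset.sum_range_succ] at h
  rw [h, add_comm]

theorem irr : Irreducible (X ^ 8 + 1 : ℚ[X]) := by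
  rw [← cyc16]
  exact cyclotomic.irreducible_rat (by norm_num)

/-- the cofactor -/
theorem exists_cof {m : ℕ} (hm : 16 ∣ m) : ∃ R : ℤ[X], (X ^ 8 + 1) * R = X ^ m - 1 := by
  obtain ⟨k, rfl⟩ := hm
  refine ⟨(X ^ 8 - 1) * ∑ j ∈ Finset.range k, (X ^ 16) ^ j, ?_⟩
  have h := mul_geom_sum (X ^ 16 : ℤ[X]) k
  rw [← mul_assoc, pow_mul, ← h]
  ring

theorem pow_eight {M : Mt ℤ} {m : ℕ} (hm : M ^ m = 1) {R : ℤ[X]} (hR : (X ^ 8 + 1) * R = X ^ m - 1)
    (hRM : aeval M R ≠ 0) : M ^ 8 = -1 := by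
  let φ : Mt ℤ →+* Mt ℚ := (Int.castRingHom ℚ).mapMatrix
  have hφ : Function.Injective φ := by
    intro A B h
    ext i j
    exact Int.cast_injective (congrFun (congrFun h i) j)
  have haev : ∀ f : ℤ[X], aeval (φ M) (f.map (Int.castRingHom ℚ)) = φ (aeval M f) := by
    intro f
    rw [aeval_def, aeval_def, eval₂_map, hom_eval₂]
    congr 1
    exact Subsingleton.elim _ _
  set N := φ M with hN
  have hdvd : (X ^ 8 + 1 : ℚ[X]) ∣ minpoly ℚ N := by
    rcases irr.isCoprime_or_dvd (minpoly ℚ N) with h | h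
    · exfalso
      apply hRM
      apply hφ
      rw [← haev, map_zero]
      have h1 : minpoly ℚ N ∣ (X ^ 8 + 1) * R.map (Int.castRingHom ℚ) := by
        apply minpoly.dvd
        have h2 := congrArg (Polynomial.map (Int.castRingHom ℚ)) hR
        simp only [Polynomial.map_mul, Polynomial.map_add, Polynomial.map_sub, Polynomial.map_pow, map_X,
          Polynomial.map_one] at h2
        rw [h2, map_sub, map_pow, aeval_X, map_one, hN, ← map_pow, hm, map_one, sub_self]
      have h2 := h.symm.dvd_of_dvd_mul_left h1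
      obtain ⟨Q, hQ⟩ := h2
      rw [hQ, map_mul, minpoly.aeval, zero_mul]
    · exact h
  have h2 : (X ^ 8 + 1 : ℚ[X]) ∣ N.charpoly := hdvd.trans (Matrix.minpoly_dvd_charpoly N)
  have hm8 : (X ^ 8 + 1 : ℚ[X]).Monic := by
    have := monic_X_pow_add_C (1 : ℚ) (n := 8) (by norm_num)
    rwa [C_1] at this
  have h3 : N.charpoly = X ^ 8 + 1 := by
    have h5 : (X ^ 8 + 1 : ℚ[X]).natDegree = 8 := by
      have := natDegree_X_pow_add_C (n := 8) (r := (1 : ℚ))
      rwa [C_1] at this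
    refine eq_of_monic_of_dvd_of_natDegree_le hm8 N.charpoly_monic h2 ?_
    have h6 := Matrix.charpoly_natDegree_eq_dim N
    rw [Fintype.card_fin] at h6
    exact (h6.trans h5.symm).le
  have h4 := Matrix.aeval_self_charpoly N
  rw [h3, map_add, map_pow, aeval_X, map_one] at h4
  apply hφ
  rw [map_pow, map_neg, map_one]
  exact eq_neg_of_add_eq_zero_left h4

/-- the value of the cofactor at a number of order 16 modulo `ℓ` -/
theorem cof_ne {ℓ : ℕ} [Fact ℓ.Prime] {m : ℕ} (hm0 : (m : ZMod ℓ) ≠ 0) {R : ℤ[X]} (hR : (X ^ 8 + 1) * R = X ^ m - 1)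
    {k : ZMod ℓ} (hk : k ^ 8 = -1) : aeval k R ≠ 0 := by
  intro h
  have h1 := congrArg (fun f => aeval k (derivative f)) hR
  simp only [derivative_mul, derivative_sub, derivative_X_pow, derivative_one, map_add, map_mul, map_pow,
    aeval_X, map_one, h, hk, add_zero, mul_zero, sub_zero, neg_add_cancel, zero_mul, map_natCast] at h1
  have hk0 : k ≠ 0 := by
    rintro rfl
    rw [zero_pow (by norm_num)] at hk
    exact neg_ne_zero.2 one_ne_zero hk.symm
  exact (mul_ne_zero hm0 (pow_ne_zero _ hk0)) h1.symm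

end Cfsg.Agent.H189.PhiSixteen
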