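import Cfsg.Agent.H189.Sixteen
import Cfsg.Agent.H189.PhiSixteen
import Cfsg.Agent.H189.ExcLift
import Cfsg.Agent.H190.Act
import Cfsg.Agent.H190.Alt
import Cfsg.Agent.H186.ExcTorus

/-!
# No section `A₁₉` in `E₈(q)`, `q` prime to 17

`no_nineteen`.
-/

set_option autoImplicit false

namespace Cfsg.Agent.H189.NoNineteen

open Cfsg.Lie Cfsg.Agent.ChevalleyStructure Cfsg.Agent.ChevalleyStructure.Elts Cfsg.Agent.H190 Cfsg.Agent.H186
  Cfsg.Agent.ChevalleyStructure.RootCombGood Cfsg.Agent.ChevalleyStructure.RootWord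
  Cfsg.Agent.ChevalleyStructure.RootComb Cfsg.Agent.ChevalleyStructure.NPerm
  Cfsg.Agent.H189.ExcLift Matrix Polynomial

universe u v

/-- the coordinates of a root of `E₈` -/
def cv (r : Fin chevE8.nroots) : Fin 8 → ℤ := fun j => co chevE8 r j

/-- the Cartan matrix -/
def C8 : Matrix (Fin 8) (Fin 8) ℤ := Matrix.of fun i j => chevE8.cartan i (chevE8.simple j)

/-- its inverse -/
def D8 : Matrix (Fin 8) (Fin 8) ℤ := Matrix.of
  ![![4, 5, 7, 10, 8, 6, 4, 2], ![5, 8, 10, 15, 12, 9, 6, 3], ![7, 10, 14, 20, 16, 12, 8, 4],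
    ![10, 15, 20, 30, 24, 18, 12, 6], ![8, 12, 16, 24, 20, 15, 10, 5], ![6, 9, 12, 18, 15, 12, 8, 4],
    ![4, 6, 8, 12, 10, 8, 6, 3], ![2, 3, 4, 6, 5, 4, 3, 2]]

theorem C8_symm : C8ᵀ = C8 := by decide +kernel
theorem C8_even : ∀ i, Even (C8 i i) := by decide +kernel
theorem D8_mul : D8 * C8 = 1 := by decide +kernel

theorem rk : chevE8.rank = 8 := by decide +kernel

/-- the simple root -/
def sr (j : Fin 8) : Fin chevE8.nroots := ⟨chevE8.simple j, goodE8.simple_lt (by rw [rk]; exact j.2)⟩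

theorem cv_sr (j : Fin 8) : cv (sr j) = Pi.single j 1 := by
  funext i
  have h := goodE8.co_simple (i := j) (j := i) (by rw [rk]; exact j.2) (by rw [rk]; exact i.2)
  show co chevE8 (chevE8.simple j) i = _
  rw [h]
  by_cases hij : (j : ℕ) = i
  · rw [if_pos hij, Fin.ext hij, Pi.single_eq_same]
  · rw [if_neg hij, Pi.single_eq_of_ne (fun e => hij (by rw [e]))]

theorem car_eq (r s : Fin chevE8.nroots) : car chevE8 r s = cv r ⬝ᵥ (C8 *ᵥ cv s) := by
  unfold car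
  rw [rk]
  simp only [dotProduct, mulVec]
  rw [Finset.sum_range]
  refine Finset.sum_congr rfl fun i _ => ?_
  congr 1
  rw [cartan_eq_sum goodE8 slE8 s.2 (by rw [rk]; exact i.2), rk, Finset.sum_range]
  refine Finset.sum_congr rfl fun j _ => ?_
  rw [mul_comm]
  rfl

/-- `M` is the matrix of the permutation `w` of the roots -/
def Rep (w : Equiv.Perm (Fin chevE8.nroots)) (M : Matrix (Fin 8) (Fin 8) ℤ) : Prop := ∀ r, M *ᵥ cv r = cv (w r)

theorem Rep.mul {v w : Equiv.Perm (Fin chevE8.nroots)} {M N : Matrix (Fin 8) (Fin 8) ℤ} (h : Rep v M) (h' : Rep w N) :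
    Rep (v * w) (M * N) := by
  intro r
  rw [← mulVec_mulVec, h' r, h (w r)]
  rfl

theorem Rep.one : Rep 1 1 := fun r => by rw [one_mulVec]; rfl

theorem Rep.pow {w : Equiv.Perm (Fin chevE8.nroots)} {M : Matrix (Fin 8) (Fin 8) ℤ} (h : Rep w M) (m : ℕ) :
    Rep (w ^ m) (M ^ m) := by
  induction m with
  | zero => rw [pow_zero, pow_zero]; exact Rep.one
  | succ m ih => rw [pow_succ, pow_succ]; exact ih.mul h

theorem Rep.unique {w : Equiv.Perm (Fin chevE8.nroots)} {M N : Matrix (Fin 8) (Fin 8) ℤ} (h : Rep w M) (h' : Rep w N) :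
    M = N := by
  ext i j
  have h1 := (h (sr j)).trans (h' (sr j)).symm
  rw [cv_sr, mulVec_single_one, mulVec_single_one] at h1
  exact congrFun h1 i

/-- the permutations that are isometries -/
def Iso (w : Equiv.Perm (Fin chevE8.nroots)) : Prop :=
  (∀ r s, car chevE8 (w r) (w s) = car chevE8 r s) ∧ ∃ M, Rep w M

theorem Iso.mul {v w : Equiv.Perm (Fin chevE8.nroots)} (h : Iso v) (h' : Iso w) : Iso (v * w) := by
  obtain ⟨h1, M, hM⟩ := h
  obtain ⟨h2, N, hN⟩ := h'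
  exact ⟨fun r s => (h1 (w r) (w s)).trans (h2 r s), M * N, hM.mul hN⟩

theorem Iso.isom {w : Equiv.Perm (Fin chevE8.nroots)} (h : Iso w) {M : Matrix (Fin 8) (Fin 8) ℤ} (hM : Rep w M) :
    Mᵀ * C8 * M = C8 := by
  ext i j
  have h1 := h.1 (sr i) (sr j)
  rw [car_eq, car_eq, ← hM, ← hM, cv_sr, cv_sr] at h1
  have key : ∀ N : Matrix (Fin 8) (Fin 8) ℤ, (Pi.single i 1 : Fin 8 → ℤ) ⬝ᵥ (N *ᵥ Pi.single j 1) = N i j := by
    intro N
    rw [mulVec_single_one, single_one_dotProduct]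
    rfl
  rw [key, ← vecMul_transpose, ← dotProduct_mulVec, mulVec_mulVec, mulVec_mulVec, key] at h1
  rw [← h1, Matrix.mul_assoc]

theorem iso_reflect {w : Equiv.Perm (Fin chevE8.nroots)} {i : ℕ} (hi : i < chevE8.rank)
    (hw : ∀ r, ((w r : Fin chevE8.nroots) : ℕ) = chevE8.reflectRoot i r) : Iso w := by
  have hi' : i < 8 := by rwa [rk] at hi
  refine ⟨fun r s => ?_, Matrix.of fun j k : Fin 8 => (if j = k then 1 else 0) -
    if (j : ℕ) = i then chevE8.cartan k (chevE8.simple i) else 0, fun r => ?_⟩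
  · rw [hw, hw]
    exact car_reflect goodE8 hi r.2 s.2
  · funext j
    show _ = co chevE8 (w r : Fin chevE8.nroots) j
    rw [hw, goodE8.co_reflect hi r.2 (by rw [rk]; exact j.2)]
    simp only [mulVec, dotProduct, Matrix.of_apply, sub_mul, Finset.sum_sub_distrib, ite_mul, one_mul, zero_mul,
      Finset.sum_ite_eq, Finset.mem_univ, if_true]
    congr 1
    split_ifs with h
    · unfold car
      rw [rk, Finset.sum_range]
      exact Finset.sum_congr rfl fun k _ => mul_comm _ _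
    · exact Finset.sum_const_zero

variable {F : Type u} [Field F]

theorem iso_inv_pw {n : ↥(chevE8.group F)} (hn : n ∈ NG chevE8 F) : Iso (pw inE8 hn)⁻¹ := by
  have h1 : pw inE8 hn ∈ (permHom inE8 F).range := ⟨_, rfl⟩
  rw [range_permHom inE8 F] at h1
  have hrefl : ∀ {w : Equiv.Perm (Fin chevE8.nroots)} {i : ℕ} (hi : i < chevE8.rank)
      (hw : ∀ r, ((w r : Fin chevE8.nroots) : ℕ) = chevE8.reflectRoot i r), Iso w ∧ Iso w⁻¹ := by
    intro w i hi hw
    refine ⟨iso_reflect hi hw, iso_reflect hi fun r => ?_⟩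
    have h2 := hw (w⁻¹ r)
    rw [show w (w⁻¹ r) = r from w.apply_symm_apply r] at h2
    rw [h2, goodE8.reflect_reflect hi (w⁻¹ r).2]
  have hgen : ∀ g ∈ Set.range fun i : Fin chevE8.rank =>
      permHom inE8 F ⟨nG inE8 (chevE8.simple i) 1, nG_simple_mem inE8 F i.2⟩, Iso g ∧ Iso g⁻¹ := by
    rintro _ ⟨i, rfl⟩
    have hw := fun r => permHom_nG inE8 i.2 ⟨nG inE8 (chevE8.simple i) 1, nG_simple_mem inE8 F i.2⟩ (coe_nG inE8 _ _) r
    exact hrefl i.2 hw
  have key : ∀ g ∈ Subgroup.closure (Set.range fun i : Fin chevE8.rank =>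
      permHom inE8 F ⟨nG inE8 (chevE8.simple i) 1, nG_simple_mem inE8 F i.2⟩), Iso g ∧ Iso g⁻¹ := by
    intro g hg
    induction hg using Subgroup.closure_induction with
    | mem g hg => exact hgen g hg
    | one => rw [inv_one]; exact ⟨⟨fun _ _ => rfl, 1, Rep.one⟩, ⟨fun _ _ => rfl, 1, Rep.one⟩⟩
    | mul a b _ _ ha hb => rw [_root_.mul_inv_rev]; exact ⟨ha.1.mul hb.1, hb.2.mul ha.2⟩
    | inv a _ ha => rw [inv_inv]; exact ⟨ha.2, ha.1⟩
  exact (key _ h1).2

/-- the additive map `x ↦ ∏ t(α_j)^{x_j}` -/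
noncomputable def L (t : GL chevE8.Idx F) (x : Fin 8 → ℤ) : F := ∏ j, ent t (sr j) ^ x j

theorem ent_eq_L {t : GL chevE8.Idx F} (ht : t ∈ chevE8.diagonalSubgroup F) (r : Fin chevE8.nroots) :
    ent t r = L t (cv r) := by
  rw [ent_eq_prod inE8 slE8 ht r]
  rfl

theorem L_add {t : GL chevE8.Idx F} (ht : t ∈ chevE8.diagonalSubgroup F) (x y : Fin 8 → ℤ) :
    L t (x + y) = L t x * L t y := by
  unfold L
  rw [← Finset.prod_mul_distrib]
  exact Finset.prod_congr rfl fun j _ => zpow_add₀ (ent_ne_zero inE8 ht _) _ _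

theorem L_zero (t : GL chevE8.Idx F) : L t 0 = 1 := by
  unfold L
  simp

theorem L_smul {t : GL chevE8.Idx F} (a : ℤ) (x : Fin 8 → ℤ) : L t (a • x) = L t x ^ a := by
  unfold L
  rw [← Finset.prod_zpow]
  refine Finset.prod_congr rfl fun j _ => ?_
  rw [Pi.smul_apply, smul_eq_mul, mul_comm, _root_.zpow_mul]

theorem L_mul_left {t t' : GL chevE8.Idx F} (ht : t ∈ chevE8.diagonalSubgroup F)
    (ht' : t' ∈ chevE8.diagonalSubgroup F) (x : Fin 8 → ℤ) : L (t * t') x = L t x * L t' x := by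
  unfold L
  rw [← Finset.prod_mul_distrib]
  refine Finset.prod_congr rfl fun j _ => ?_
  rw [ent_mul inE8 ht ht', mul_zpow]

theorem L_sum {t : GL chevE8.Idx F} (ht : t ∈ chevE8.diagonalSubgroup F) {ι : Type*} (s : Finset ι) (f : ι → Fin 8 → ℤ) :
    L t (∑ i ∈ s, f i) = ∏ i ∈ s, L t (f i) := by
  classical
  induction s using Finset.induction_on with
  | empty => rw [Finset.sum_empty, Finset.prod_empty, L_zero]
  | insert a s ha ih => rw [Finset.sum_insert ha, Finset.prod_insert ha, L_add ht, ih]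

/-- conjugation by `n` -/
theorem L_conj {n t : ↥(chevE8.group F)} (hn : n ∈ NG chevE8 F) (ht : t ∈ TG chevE8 F) {M : Matrix (Fin 8) (Fin 8) ℤ}
    (hM : Rep (pw inE8 hn)⁻¹ M) (x : Fin 8 → ℤ) :
    L ((n * t * n⁻¹ : ↥(chevE8.group F)) : GL chevE8.Idx F) x = L (t : GL chevE8.Idx F) (M *ᵥ x) := by
  have h1 := conj_mem_TG inE8 hn ht
  have key : ∀ j, ent ((n * t * n⁻¹ : ↥(chevE8.group F)) : GL chevE8.Idx F) (sr j) =
      L (t : GL chevE8.Idx F) (M *ᵥ Pi.single j 1) := by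
    intro j
    have h2 := ent_conj' inE8 hn ht ((pw inE8 hn)⁻¹ (sr j))
    rw [show pw inE8 hn ((pw inE8 hn)⁻¹ (sr j)) = sr j from (pw inE8 hn).apply_symm_apply _] at h2
    rw [h2, ent_eq_L (t := (t : GL chevE8.Idx F)) ht, ← hM, cv_sr]
  unfold L
  have h3 : M *ᵥ x = ∑ j, x j • (M *ᵥ Pi.single j 1) := by
    conv_lhs => rw [pi_eq_sum_univ' x]
    rw [mulVec_sum]
    refine Finset.sum_congr rfl fun j _ => ?_
    rw [mulVec_smul]
  have h4 : L (t : GL chevE8.Idx F) (M *ᵥ x) = ∏ j, ent ((n * t * n⁻¹ : ↥(chevE8.group F)) : GL chevE8.Idx F) (sr j) ^ x j := by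
    rw [h3, L_sum (t := (t : GL chevE8.Idx F)) ht]
    refine Finset.prod_congr rfl fun j _ => ?_
    rw [L_smul, key]
  exact h4.symm


theorem L_one (x : Fin 8 → ℤ) : L (1 : GL chevE8.Idx F) x = 1 := by
  unfold L
  refine Finset.prod_eq_one fun j _ => ?_
  have h : ent (1 : GL chevE8.Idx F) (sr j) = 1 := by
    unfold ent
    rw [Units.val_one, Matrix.one_apply_eq]
  rw [h, _root_.one_zpow]

/-- `L` on elements of the torus of `D.group F` -/
noncomputable def LT (t : ↥(chevE8.group F)) (x : Fin 8 → ℤ) : F := L (t : GL chevE8.Idx F) x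

theorem LT_mul {s t : ↥(chevE8.group F)} (hs : s ∈ TG chevE8 F) (ht : t ∈ TG chevE8 F) (x : Fin 8 → ℤ) :
    LT (s * t) x = LT s x * LT t x :=
  L_mul_left (t := (s : GL chevE8.Idx F)) (t' := (t : GL chevE8.Idx F)) hs ht x

theorem LT_one (x : Fin 8 → ℤ) : LT (1 : ↥(chevE8.group F)) x = 1 := L_one x

theorem LT_pow {s : ↥(chevE8.group F)} (hs : s ∈ TG chevE8 F) (x : Fin 8 → ℤ) (m : ℕ) :
    LT (s ^ m) x = LT s x ^ m := by
  induction m with
  | zero => rw [pow_zero, pow_zero, LT_one]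
  | succ m ih => rw [pow_succ, pow_succ, LT_mul ((TG chevE8 F).pow_mem hs m) hs, ih]

theorem LT_inv {s : ↥(chevE8.group F)} (hs : s ∈ TG chevE8 F) (x : Fin 8 → ℤ) : LT s⁻¹ x = (LT s x)⁻¹ := by
  have h1 := LT_mul ((TG chevE8 F).inv_mem hs) hs x
  rw [inv_mul_cancel, LT_one] at h1
  exact eq_inv_of_mul_eq_one_left h1.symm

/-- **the relation lemma**: `aeval M f` acts on the torus; `ψ` multiplies by `f(k)`. -/
theorem rel {n : ↥(chevE8.group F)} (hn : n ∈ NG chevE8 F) {M : Matrix (Fin 8) (Fin 8) ℤ}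
    (hM : Rep (pw inE8 hn)⁻¹ M) {ℓ k : ℕ} {S : Subgroup ↥(chevE8.group F)} (hS : S ≤ TG chevE8 F)
    {ψ : ↥(chevE8.group F) → ZMod ℓ} (hψ : ∀ s ∈ S, ∀ t ∈ S, ψ (s * t) = ψ s + ψ t)
    (hn' : ∀ s ∈ S, n * s * n⁻¹ ∈ S ∧ ψ (n * s * n⁻¹) = k * ψ s) (f : ℤ[X]) :
    ∀ s ∈ S, ∃ u ∈ S, (∀ x, LT u x = LT s (aeval M f *ᵥ x)) ∧ ψ u = aeval (k : ZMod ℓ) f * ψ s := by
  have hpow : ∀ s ∈ S, ∀ m : ℕ, ψ (s ^ m) = m * ψ s := by
    intro s hs m
    induction m with
    | zero => rw [pow_zero, psi_one S ψ hψ, Nat.cast_zero, zero_mul]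
    | succ m ih => rw [pow_succ, hψ _ (S.pow_mem hs m) _ hs, ih, Nat.cast_succ, add_mul, one_mul]
  induction f using Polynomial.induction_on' with
  | add p q hp hq =>
    intro s hs
    obtain ⟨u, hu, h1, h2⟩ := hp s hs
    obtain ⟨v, hv, h3, h4⟩ := hq s hs
    refine ⟨u * v, S.mul_mem hu hv, fun x => ?_, ?_⟩
    · rw [map_add, add_mulVec, LT_mul (hS hu) (hS hv), h1, h3]
      exact (L_add (t := (s : GL chevE8.Idx F)) (hS hs) _ _).symm
    · rw [hψ u hu v hv, h2, h4, map_add, add_mul]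
  | monomial m a =>
    induction m with
    | zero =>
      intro s hs
      rw [monomial_zero_left]
      have haC : aeval M (C a) = a • (1 : Matrix (Fin 8) (Fin 8) ℤ) := by
        rw [aeval_C]
        exact Algebra.algebraMap_eq_smul_one a
      have hL : ∀ x, LT s ((a • (1 : Matrix (Fin 8) (Fin 8) ℤ)) *ᵥ x) = LT s x ^ a := by
        intro x
        rw [smul_mulVec, one_mulVec]
        exact L_smul a x
      rw [haC, aeval_C]
      rcases Int.eq_nat_or_neg a with ⟨b, rfl | rfl⟩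
      · refine ⟨s ^ b, S.pow_mem hs b, fun x => ?_, ?_⟩
        · rw [hL, LT_pow (hS hs), _root_.zpow_natCast]
        · rw [hpow s hs b]; simp
      · refine ⟨(s ^ b)⁻¹, S.inv_mem (S.pow_mem hs b), fun x => ?_, ?_⟩
        · rw [hL, LT_inv (hS (S.pow_mem hs b)), LT_pow (hS hs), _root_.zpow_neg, _root_.zpow_natCast]
        · rw [psi_inv S ψ hψ (S.pow_mem hs b), hpow s hs b]; simp
    | succ m ih =>
      intro s hs
      obtain ⟨u, hu, h1, h2⟩ := ih s hs
      have h3 := hn' u hu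
      refine ⟨n * u * n⁻¹, h3.1, fun x => ?_, ?_⟩
      · have h4 : LT (n * u * n⁻¹) x = LT u (M *ᵥ x) := L_conj hn (hS hu) hM x
        rw [h4, h1, mulVec_mulVec, ← monomial_mul_X, map_mul, aeval_X]
      · rw [h3.2, h2, ← monomial_mul_X, map_mul, aeval_X]
        ring

theorem rel_zero {n : ↥(chevE8.group F)} (hn : n ∈ NG chevE8 F) {M : Matrix (Fin 8) (Fin 8) ℤ}
    (hM : Rep (pw inE8 hn)⁻¹ M) {ℓ k : ℕ} (hA : Acts (TG chevE8 F) n ℓ k) {f : ℤ[X]} (hf : aeval M f = 0) :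
    aeval (k : ZMod ℓ) f = 0 := by
  obtain ⟨S, hST, ψ, hadd, ⟨s, hs, hs1⟩, hn'⟩ := hA
  obtain ⟨u, hu, h1, h2⟩ := rel hn hM hST hadd hn' f s hs
  have h3 : u = 1 := by
    apply Subtype.ext
    refine torus_ext inE8 (t := (u : GL chevE8.Idx F)) (hST hu) (one_mem _) fun r => ?_
    rw [ent_eq_L (t := (u : GL chevE8.Idx F)) (hST hu), Subgroup.coe_one, ent_eq_L (one_mem _), L_one]
    have h4 := h1 (cv r)
    rw [hf, zero_mulVec] at h4
    exact h4.trans (L_zero _)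
  rw [h3, psi_one S ψ hadd, hs1, mul_one] at h2
  exact h2.symm

/-- `M ^ |W| = 1` -/
theorem pow_W {n : ↥(chevE8.group F)} (hn : n ∈ NG chevE8 F) {M : Matrix (Fin 8) (Fin 8) ℤ}
    (hM : Rep (pw inE8 hn)⁻¹ M) : M ^ 696729600 = 1 := by
  have hW : (TG chevE8 F).relIndex (NG chevE8 F) = 696729600 := by
    obtain ⟨φ, h1, h2, -⟩ := Cfsg.Agent.S1039.result (F := F) (chevE8, ⟨8, CoxeterMatrix.E₈⟩) (by simp)
    exact relIndex_NG inE8 ⟨φ, h1, h2⟩ (Cfsg.Agent.S1093.result (⟨8, CoxeterMatrix.E₈⟩, 696729600) (by simp))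
  have hnor : ((TG chevE8 F).subgroupOf (NG chevE8 F)).Normal := by
    refine ⟨fun a ha b => ?_⟩
    exact (torusData inE8 F).normal b b.2 a ha
  have h1 : (⟨n, hn⟩ : NG chevE8 F) ^ ((TG chevE8 F).subgroupOf (NG chevE8 F)).index ∈
      (TG chevE8 F).subgroupOf (NG chevE8 F) := Subgroup.pow_index_mem _ _
  have h2 : n ^ 696729600 ∈ TG chevE8 F := by
    rw [← hW]
    exact h1
  have h3 : pw inE8 hn ^ 696729600 = 1 := by
    rw [← pw_pow]
    exact permHom_diagonal inE8 h2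
  have h4 := hM.pow 696729600
  rw [inv_pow, h3, inv_one] at h4
  exact h4.unique Rep.one

theorem m17 : ((696729600 : ℕ) : ZMod 17) ≠ 0 := by decide +kernel
theorem k17 : ((3 : ℕ) : ZMod 17) ^ 8 = -1 := by decide +kernel

/-- **no element of `N` acts on the torus with "eigenvalue" of order 16** -/
theorem no_acts {n : ↥(chevE8.group F)} (hn : n ∈ NG chevE8 F) (hA : Acts (TG chevE8 F) n 17 3) : False := by
  have : Fact (Nat.Prime 17) := ⟨by norm_num⟩
  have hI := iso_inv_pw hn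
  obtain ⟨M, hM⟩ := hI.2
  obtain ⟨R, hR⟩ := PhiSixteen.exists_cof (m := 696729600) (by norm_num)
  have h1 : aeval M R ≠ 0 := by
    intro h
    have h2 := rel_zero hn hM hA h
    exact PhiSixteen.cof_ne (ℓ := 17) (m := 696729600) m17 hR k17 h2
  exact Sixteen.no_sixteen C8_symm C8_even D8_mul (hI.isom hM) (PhiSixteen.pow_eight (pow_W hn hM) hR h1)

/-- a 17-cycle -/
def x19 : Equiv.Perm (Fin 19) := ofTab ![1, 2, 3, 4, 5, 6, 7, 8, 9, 10, 11, 12, 13, 14, 15, 16, 0, 17, 18]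
  ![16, 0, 1, 2, 3, 4, 5, 6, 7, 8, 9, 10, 11, 12, 13, 14, 15, 17, 18] (by decide) (by decide)
/-- `x ↦ 3x` and a transposition -/
def y19 : Equiv.Perm (Fin 19) := ofTab ![0, 3, 6, 9, 12, 15, 1, 4, 7, 10, 13, 16, 2, 5, 8, 11, 14, 18, 17]
  ![0, 6, 12, 1, 7, 13, 2, 8, 14, 3, 9, 15, 4, 10, 16, 5, 11, 18, 17] (by decide) (by decide)

theorem x19_mem : x19 ∈ alternatingGroup (Fin 19) := by
  rw [Equiv.Perm.mem_alternatingGroup]; decide +kernel
theorem y19_mem : y19 ∈ alternatingGroup (Fin 19) := by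
  rw [Equiv.Perm.mem_alternatingGroup]; decide +kernel
theorem rel19 : y19 * x19 * y19⁻¹ = x19 ^ 3 := by decide +kernel
theorem x19_order : orderOf x19 = 17 := by
  have : Fact (Nat.Prime 17) := ⟨by norm_num⟩
  exact orderOf_eq_prime (by decide +kernel) (by decide +kernel)

/-- **no section `A_r`, `r ≥ 19`, if `p ≠ 17`** -/
theorem no_nineteen {F : Type u} [Field F] [Fintype F] (p : ℕ) [hp : Fact p.Prime] [CharP F p] (h17 : p ≠ 17)
    (r : ℕ) (hr : 19 ≤ r) (H : Subgroup ↥(chevE8.group F)) (K : Subgroup ↥H) [K.Normal]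
    (h : Nonempty (↥H ⧸ K ≃* ↥(alternatingGroup (Fin r)))) : False := by
  have : Fact (Nat.Prime 17) := ⟨by norm_num⟩
  have hm : ¬ p ∣ 17 := fun hd => h17 ((Nat.prime_dvd_prime_iff_eq hp.out (by norm_num)).1 hd)
  obtain ⟨K', _, _, f, hK'⟩ := field_ext' F p hm
  obtain ⟨H', ι, φ, hι, hφ⟩ := start chevE8 f hr H K h
  have hidx : ¬ 17 ∣ (TG chevE8 K').index := by
    refine not_dvd_index inE8 [2, 8, 12, 14, 18, 20, 24, 30] (d := 1) (N := 120) one_ne_zero ?_ ?_ (by norm_num) hK'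
      (by decide)
    · rw [one_mul, Cfsg.Agent.S1065.result rfl]
      simp only [List.map_cons, List.map_nil, List.prod_cons, List.prod_nil]
      ring
    · exact Cfsg.Agent.S1035.result (F := K') rfl (chevE8, 1) (by simp)
  obtain ⟨n, hn, hA⟩ := one_prime (torusData inE8 K') hidx ι hι φ hφ
    (x := ⟨x19, x19_mem⟩) (y := ⟨y19, y19_mem⟩) (k := 3) (by rw [Subgroup.orderOf_mk]; exact x19_order)
    (Subtype.ext rel19)
  exact no_acts hn hA

end Cfsg.Agent.H189.NoNineteen
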