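import Cfsg.Agent.H186.MinCover
import Cfsg.Agent.H186.MinCoverAlt

/-!
# Ranks of elementary abelian sections; lifting an `ℓ`-group with its fusion

* `card_quot_pow_le`: `|A / A^ℓ| ≤ |P[ℓ]|` if the finite abelian group `A` embeds in a quotient of the abelian group `P`.
* `secBound_of_torus`: `T` abelian, normal in `N ≤ X`, `ℓ ∤ |X : N|`, rank of `T` at most `a`, `v_ℓ(|N : T|) ≤ b`:
  elementary abelian `ℓ`-sections of `X` have rank at most `a + b`.
* `exists_fus_hom`: `ℓ`-subgroups `P` of `A` lift through `φ : H → A` with `ℓ ∤ |ker φ|` together with all the fusion in `P`.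
-/

set_option autoImplicit false

namespace Cfsg.Agent.H189.SecB

open Subgroup Cfsg.Agent.H186 Cfsg.Agent.H190

universe u v

section comm

theorem card_quot_pow {A : Type u} [CommGroup A] [Finite A] (ℓ : ℕ) :
    Nat.card (A ⧸ (powMonoidHom ℓ : A →* A).range) = Nat.card (powMonoidHom ℓ : A →* A).ker := by
  have h1 := card_mul_index (powMonoidHom ℓ : A →* A).ker
  have h2 := card_mul_index (powMonoidHom ℓ : A →* A).range
  rw [index_ker] at h1
  have h3 : 0 < Nat.card (powMonoidHom ℓ : A →* A).range := Nat.card_pos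
  have h4 : Nat.card (powMonoidHom ℓ : A →* A).range * Nat.card (powMonoidHom ℓ : A →* A).ker =
      Nat.card (powMonoidHom ℓ : A →* A).range * (powMonoidHom ℓ : A →* A).range.index := by
    rw [h2, ← h1, mul_comm]
  exact (Nat.eq_of_mul_eq_mul_left h3 h4).symm

theorem card_quot_pow_le_of_surj {A B : Type*} [CommGroup A] [CommGroup B] [Finite A] [Finite B] (ℓ : ℕ)
    (f : A →* B) (hf : Function.Surjective f) :
    Nat.card (B ⧸ (powMonoidHom ℓ : B →* B).range) ≤ Nat.card (A ⧸ (powMonoidHom ℓ : A →* A).range) := by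
  let g : A ⧸ (powMonoidHom ℓ : A →* A).range →* B ⧸ (powMonoidHom ℓ : B →* B).range :=
    QuotientGroup.map _ _ f (by
      rintro _ ⟨x, rfl⟩
      refine ⟨f x, ?_⟩
      change f x ^ ℓ = f (x ^ ℓ)
      rw [map_pow])
  apply Nat.card_le_card_of_surjective g
  intro y
  obtain ⟨b, rfl⟩ := QuotientGroup.mk_surjective y
  obtain ⟨a, rfl⟩ := hf b
  exact ⟨(a : A ⧸ _), rfl⟩

theorem card_ker_pow_le_of_inj {A B : Type*} [CommGroup A] [CommGroup B] [Finite B] (ℓ : ℕ)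
    (f : A →* B) (hf : Function.Injective f) :
    Nat.card (powMonoidHom ℓ : A →* A).ker ≤ Nat.card (powMonoidHom ℓ : B →* B).ker := by
  apply Nat.card_le_card_of_injective (fun x : (powMonoidHom ℓ : A →* A).ker =>
    (⟨f x, by
      have h1 : (x : A) ^ ℓ = 1 := x.2
      change f x ^ ℓ = 1
      rw [← map_pow, h1, map_one]⟩ : (powMonoidHom ℓ : B →* B).ker))
  intro x y h
  exact Subtype.ext (hf (congrArg Subtype.val h))

/-- `A` embeds in a group covered by `P` -/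
theorem card_quot_pow_le {A B P : Type*} [CommGroup A] [CommGroup B] [CommGroup P] [Finite A] [Finite P] (ℓ : ℕ)
    (f : A →* B) (hf : Function.Injective f) (θ : P →* B) (hθ : ∀ a, f a ∈ θ.range) :
    Nat.card (A ⧸ (powMonoidHom ℓ : A →* A).range) ≤ Nat.card (powMonoidHom ℓ : P →* P).ker := by
  have hfin : Finite θ.range := Finite.of_surjective θ.rangeRestrict θ.rangeRestrict_surjective
  have h1 : Nat.card (powMonoidHom ℓ : A →* A).ker ≤ Nat.card (powMonoidHom ℓ : θ.range →* θ.range).ker :=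
    card_ker_pow_le_of_inj ℓ (f.codRestrict θ.range hθ) (by
      intro x y h
      exact hf (congrArg Subtype.val h))
  have h2 := card_quot_pow_le_of_surj ℓ θ.rangeRestrict θ.rangeRestrict_surjective
  rw [card_quot_pow] at h2 ⊢
  rw [card_quot_pow] at h2
  exact h1.trans h2

end comm

section sec

variable {X : Type u} [Group X]

theorem card_mul_relIndex {A B : Subgroup X} (h : A ≤ B) : Nat.card A * A.relIndex B = Nat.card B := by
  rw [← card_mul_index (A.subgroupOf B), relIndex]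
  congr 1
  exact Nat.card_congr (subgroupOfEquivOfLe h).toEquiv.symm

/-- elementary abelian quotients of subgroups of `T` have order at most `ℓ ^ a` -/
def RankLe (T : Subgroup X) (ℓ a : ℕ) : Prop :=
  ∀ A A₂ : Subgroup X, A₂ ≤ A → A ≤ T → (∀ x ∈ A, x ^ ℓ ∈ A₂) → A₂.relIndex A ≤ ℓ ^ a

theorem rankLe_of {B P : Type*} [CommGroup B] [CommGroup P] [Finite P] [Finite X] (T : Subgroup X)
    (hT : ∀ a ∈ T, ∀ b ∈ T, a * b = b * a) {ℓ a : ℕ} (f : T →* B) (hf : Function.Injective f) (θ : P →* B)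
    (hθ : ∀ x, f x ∈ θ.range) (hP : Nat.card (powMonoidHom ℓ : P →* P).ker ≤ ℓ ^ a) : RankLe T ℓ a := by
  intro A A₂ h2 hA hpow
  let iA : CommGroup A := { (inferInstance : Group A) with
    mul_comm := fun x y => Subtype.ext (hT x (hA x.2) y (hA y.2)) }
  have h1 := card_quot_pow_le (A := A) ℓ (f.comp (inclusion hA)) (hf.comp (inclusion_injective hA)) θ
    (fun x => hθ _)
  have h3 : (powMonoidHom ℓ : A →* A).range ≤ A₂.subgroupOf A := by
    rintro _ ⟨x, rfl⟩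
    exact hpow x x.2
  have h4 : (A₂.subgroupOf A).index ≤ (powMonoidHom ℓ : A →* A).range.index :=
    Nat.le_of_dvd (Nat.pos_of_ne_zero index_ne_zero_of_finite) (index_dvd_of_le h3)
  exact h4.trans (h1.trans hP)

/-- **rank of the sections** -/
theorem secBound_of_torus [Finite X] {T N : Subgroup X}
    (hn : ∀ n ∈ N, ∀ t ∈ T, n * t * n⁻¹ ∈ T) {ℓ : ℕ} [hl : Fact ℓ.Prime] (hidx : ¬ ℓ ∣ N.index) {a b : ℕ}
    (hrk : RankLe T ℓ a) (hb : ∀ k, ℓ ^ k ∣ T.relIndex N → k ≤ b) : SecBound X ℓ (a + b) := by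
  classical
  -- subgroups of `N`
  have key : ∀ R R₂ : Subgroup X, R₂ ≤ R → R ≤ N → IsPGroup ℓ R → (∀ x ∈ R, x ^ ℓ ∈ R₂) →
      R₂.relIndex R ≤ ℓ ^ (a + b) := by
    intro R R₂ h2 hRN hR hpow
    have e1 : Nat.card (R ⊓ T : Subgroup X) * T.relIndex R = Nat.card R := by
      have := card_mul_index (T.subgroupOf R)
      rw [← this, relIndex]
      congr 1
      rw [inf_comm, ← subgroupOf_map_subtype]
      exact Nat.card_congr ((T.subgroupOf R).equivMapOfInjective R.subtype R.subtype_injective).toEquiv.symm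
    have e2 : Nat.card (R₂ ⊓ T : Subgroup X) * T.relIndex R₂ = Nat.card R₂ := by
      have := card_mul_index (T.subgroupOf R₂)
      rw [← this, relIndex]
      congr 1
      rw [inf_comm, ← subgroupOf_map_subtype]
      exact Nat.card_congr ((T.subgroupOf R₂).equivMapOfInjective R₂.subtype R₂.subtype_injective).toEquiv.symm
    have e3 : Nat.card R₂ * R₂.relIndex R = Nat.card R := card_mul_relIndex h2
    have h4 : (R₂ ⊓ T : Subgroup X) ≤ R ⊓ T := inf_le_inf_right T h2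
    have e4 : Nat.card (R₂ ⊓ T : Subgroup X) * (R₂ ⊓ T).relIndex (R ⊓ T) = Nat.card (R ⊓ T : Subgroup X) :=
      card_mul_relIndex h4
    have h5 : (R₂ ⊓ T).relIndex (R ⊓ T) ≤ ℓ ^ a :=
      hrk _ _ h4 inf_le_right (fun x hx => ⟨hpow x hx.1, pow_mem hx.2 ℓ⟩)
    have h6 : T.relIndex R ≤ ℓ ^ b := by
      have hd1 : T.relIndex R ∣ T.relIndex N := by
        have hTn : (T.subgroupOf N).Normal := by
          constructor
          intro t ht n
          exact hn n n.2 t ht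
        have := relIndex_dvd_index_of_normal (T.subgroupOf N) (R.subgroupOf N)
        rwa [relIndex_subgroupOf hRN] at this
      have hd2 : T.relIndex R ∣ Nat.card R := relIndex_dvd_card T R
      obtain ⟨k, hk⟩ := IsPGroup.iff_card.1 hR
      rw [hk] at hd2
      obtain ⟨j, _, hj⟩ := (Nat.dvd_prime_pow hl.out).1 hd2
      rw [hj]
      exact Nat.pow_le_pow_right hl.out.pos (hb j (hj ▸ hd1))
    have hpos2 : 0 < Nat.card R₂ := Nat.card_pos
    have hpos3 : 0 < T.relIndex R₂ := Nat.pos_of_ne_zero (by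
      intro h
      rw [h, mul_zero] at e2
      omega)
    have h7 : Nat.card R₂ * R₂.relIndex R ≤ Nat.card R₂ * ((R₂ ⊓ T).relIndex (R ⊓ T) * T.relIndex R) := by
      rw [e3, ← e1, ← e4, ← e2]
      calc Nat.card (R₂ ⊓ T : Subgroup X) * (R₂ ⊓ T).relIndex (R ⊓ T) * T.relIndex R
          = Nat.card (R₂ ⊓ T : Subgroup X) * ((R₂ ⊓ T).relIndex (R ⊓ T) * T.relIndex R) := mul_assoc _ _ _
        _ ≤ Nat.card (R₂ ⊓ T : Subgroup X) * T.relIndex R₂ * ((R₂ ⊓ T).relIndex (R ⊓ T) * T.relIndex R) :=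
          Nat.mul_le_mul_right _ (Nat.le_mul_of_pos_right _ hpos3)
    have h8 := Nat.le_of_mul_le_mul_left h7 hpos2
    rw [pow_add]
    exact h8.trans (Nat.mul_le_mul h5 h6)
  intro R R₂ h2 hR hpow _ _
  obtain ⟨g, hg⟩ := exists_conj_le N hidx R hR
  let c : X →* X := (MulAut.conj g).toMonoidHom
  have hc : Function.Injective c := (MulAut.conj g).injective
  have h3 := key (R.map c) (R₂.map c) (map_mono h2) (by
    rintro _ ⟨x, hx, rfl⟩
    exact hg x hx) (hR.map c) (by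
    rintro _ ⟨x, hx, rfl⟩
    refine ⟨x ^ ℓ, hpow x hx, ?_⟩
    rw [map_pow])
  rwa [relIndex_map_map_of_injective _ _ hc] at h3

/-- transfer along an embedding -/
theorem secBound_of_injective {H : Type v} [Group H] (ι : H →* X) (hι : Function.Injective ι) {ℓ m : ℕ}
    (h : SecBound X ℓ m) : SecBound H ℓ m := by
  intro R R₂ h2 hR hpow hcomm hnorm
  have h3 := h (R.map ι) (R₂.map ι) (map_mono h2) (hR.map ι) (by
      rintro _ ⟨x, hx, rfl⟩
      exact ⟨x ^ ℓ, hpow x hx, by rw [map_pow]⟩) (by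
      rintro _ ⟨x, hx, rfl⟩ _ ⟨y, hy, rfl⟩
      exact ⟨_, hcomm x hx y hy, by rw [map_mul, map_mul, map_mul, map_inv, map_inv]⟩) (by
      rintro _ ⟨x, hx, rfl⟩ _ ⟨y, hy, rfl⟩
      exact ⟨_, hnorm x hx y hy, by rw [map_mul, map_mul, map_inv]⟩)
  rwa [relIndex_map_map_of_injective _ _ hι] at h3

end sec

section lift

variable {H : Type u} {A : Type v} [Group H] [Group A] [Finite H] {φ : H →* A}

/-- an `ℓ`-group lifts with all its fusion -/
theorem exists_fus_hom (hφ : Function.Surjective φ) {ℓ : ℕ} [hl : Fact ℓ.Prime] (hk : ¬ ℓ ∣ Nat.card φ.ker)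
    (P : Subgroup A) (hP : IsPGroup ℓ P) :
    ∃ s : P →* H, (∀ q, φ (s q) = q) ∧ ∀ (a : A) (Q : Subgroup A) (hQ : Q ≤ P) (hQ' : ∀ q ∈ Q, a * q * a⁻¹ ∈ P),
      ∃ h : H, ∀ q (hq : q ∈ Q), h * s ⟨q, hQ hq⟩ * h⁻¹ = s ⟨a * q * a⁻¹, hQ' q hq⟩ := by
  classical
  obtain ⟨s, hs, -⟩ := exists_section_hom hφ hk P hP
  refine ⟨s, hs, ?_⟩
  intro a Q hQ hQ'
  obtain ⟨h₀, rfl⟩ := hφ a
  -- the conjugate of `Q`
  let Q₁ : Subgroup A := Q.map (MulAut.conj (φ h₀)).toMonoidHom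
  have hQ₁ : Q₁ ≤ P := by
    rintro _ ⟨q, hq, rfl⟩
    exact hQ' q hq
  let L : Subgroup H := Q₁.comap φ
  let S₁ : Subgroup H := (Q₁.subgroupOf P).map s
  have hS₁L : S₁ ≤ L := by
    rintro _ ⟨x, hx, rfl⟩
    change φ (s x) ∈ Q₁
    rw [hs]
    exact hx
  let S₂ : Subgroup H := ((Q.subgroupOf P).map s).map (MulAut.conj h₀).toMonoidHom
  have hS₂L : S₂ ≤ L := by
    rintro _ ⟨_, ⟨x, hx, rfl⟩, rfl⟩
    change φ (h₀ * s x * h₀⁻¹) ∈ Q₁
    rw [map_mul, map_mul, map_inv, hs]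
    exact ⟨x, hx, rfl⟩
  have hS₂p : IsPGroup ℓ S₂ := ((hP.to_subgroup (Q.subgroupOf P)).map s).map _
  -- the index of `S₁` in `L`
  have hsinj : Function.Injective s := by
    intro x y hxy
    apply Subtype.ext
    rw [← hs x, ← hs y, hxy]
  have hidx : ¬ ℓ ∣ (S₁.subgroupOf L).index := by
    intro hd
    let ψ : L →* Q₁ := (φ.comp L.subtype).codRestrict Q₁ (fun y => y.2)
    have hψ : Function.Surjective ψ := by
      rintro ⟨y, hy⟩
      obtain ⟨z, rfl⟩ := hφ y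
      exact ⟨⟨z, hy⟩, rfl⟩
    have h4 := card_mul_index ψ.ker
    rw [index_ker, MonoidHom.range_eq_top.2 hψ, card_top] at h4
    have h5 : Nat.card ψ.ker = Nat.card φ.ker := by
      refine Nat.card_congr ⟨fun y => ⟨(y : L), ?_⟩, fun y => ⟨⟨y, ?_⟩, ?_⟩, fun _ => rfl, fun _ => rfl⟩
      · exact congrArg Subtype.val (MonoidHom.mem_ker.1 y.2)
      · change φ y ∈ Q₁
        rw [MonoidHom.mem_ker.1 y.2]
        exact one_mem _
      · exact Subtype.ext (MonoidHom.mem_ker.1 y.2)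
    have h6 : Nat.card (S₁.subgroupOf L) = Nat.card Q₁ := by
      rw [Nat.card_congr (subgroupOfEquivOfLe hS₁L).toEquiv,
        ← Nat.card_congr (subgroupOfEquivOfLe hQ₁).toEquiv]
      exact Nat.card_congr ((Q₁.subgroupOf P).equivMapOfInjective s hsinj).toEquiv.symm
    have h7 := card_mul_index (S₁.subgroupOf L)
    rw [← h4, h5, h6, mul_comm (Nat.card φ.ker)] at h7
    have hfin : Finite Q₁ := Finite.of_surjective ψ hψ
    have h8 := Nat.eq_of_mul_eq_mul_left Nat.card_pos h7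
    exact hk (h8 ▸ hd)
  obtain ⟨k, hk'⟩ := exists_conj_le (S₁.subgroupOf L) hidx (S₂.subgroupOf L) (hS₂p.comap_subtype)
  have hkQ : φ (k : H) ∈ Q₁ := k.2
  let b : H := s ⟨φ (k : H), hQ₁ hkQ⟩
  have hb : b ∈ S₁ := ⟨⟨φ (k : H), hQ₁ hkQ⟩, hkQ, rfl⟩
  refine ⟨b⁻¹ * k * h₀, ?_⟩
  intro q hq
  have h1 : h₀ * s ⟨q, hQ hq⟩ * h₀⁻¹ ∈ S₂ := ⟨s ⟨q, hQ hq⟩, ⟨⟨q, hQ hq⟩, hq, rfl⟩, rfl⟩
  have h2 : (k : H) * (h₀ * s ⟨q, hQ hq⟩ * h₀⁻¹) * (k : H)⁻¹ ∈ S₁ := hk' ⟨_, hS₂L h1⟩ h1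
  have h3 : b⁻¹ * k * h₀ * s ⟨q, hQ hq⟩ * (b⁻¹ * k * h₀)⁻¹ ∈ S₁ := by
    have h4 : b⁻¹ * k * h₀ * s ⟨q, hQ hq⟩ * (b⁻¹ * k * h₀)⁻¹ =
        b⁻¹ * ((k : H) * (h₀ * s ⟨q, hQ hq⟩ * h₀⁻¹) * (k : H)⁻¹) * b := by group
    rw [h4]
    exact mul_mem (mul_mem (inv_mem hb) h2) hb
  obtain ⟨x, hx, hxe⟩ := h3
  rw [← hxe]
  congr 1
  apply Subtype.ext
  rw [← hs x, hxe]
  have hbk : φ b = φ k := hs _
  simp only [map_mul, map_inv, hs, hbk]
  group

end lift

end Cfsg.Agent.H189.SecB
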