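import Mathlib

/-!
# No isometry `M` of an even unimodular lattice of rank 8 has `M ^ 8 = - 1`
-/

set_option autoImplicit false

namespace Cfsg.Agent.H189.Sixteen

open Matrix Polynomial

abbrev Mt (R : Type*) := Matrix (Fin 8) (Fin 8) R

/-- reduction modulo 2 -/
def red : Mt ℤ →+* Mt (ZMod 2) := (Int.castRingHom (ZMod 2)).mapMatrix

theorem red_apply (A : Mt ℤ) (i j : Fin 8) : red A i j = (A i j : ZMod 2) := rfl

theorem even_form {C : Mt ℤ} (hs : Cᵀ = C) (he : ∀ i, Even (C i i)) (x : Fin 8 → ℤ) : Even (x ⬝ᵥ (C *ᵥ x)) := by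
  have h1 : ((x ⬝ᵥ (C *ᵥ x) : ℤ) : ZMod 2) = 0 := by
    simp only [dotProduct, mulVec, Finset.mul_sum, Int.cast_sum, Int.cast_mul]
    have h2 : ∀ i j, (C i j : ZMod 2) = C j i := fun i j => by
      have := congrFun (congrFun hs j) i
      rw [transpose_apply] at this
      rw [this]
    have h3 : ∀ i, (C i i : ZMod 2) = 0 := fun i => (ZMod.intCast_zmod_eq_zero_iff_dvd _ 2).2 (he i).two_dvd
    simp only [Fin.sum_univ_eight, h3, mul_zero, zero_mul]
    simp only [h2 1 0, h2 2 0, h2 3 0, h2 4 0, h2 5 0, h2 6 0, h2 7 0, h2 2 1, h2 3 1, h2 4 1, h2 5 1, h2 6 1, h2 7 1,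
      h2 3 2, h2 4 2, h2 5 2, h2 6 2, h2 7 2, h2 4 3, h2 5 3, h2 6 3, h2 7 3, h2 5 4, h2 6 4, h2 7 4, h2 6 5, h2 7 5,
      h2 7 6]
    have h4 : ∀ a : ZMod 2, a + a = 0 := by decide
    ring_nf
    have h5 : (2 : ZMod 2) = 0 := by decide
    simp only [h5, mul_zero, add_zero]
  exact (ZMod.intCast_zmod_eq_zero_iff_dvd _ 2).1 h1 |>.elim fun k hk => ⟨k, by rw [hk]; push_cast; ring⟩

variable {C M : Mt ℤ}

theorem pow_isom (hM : Mᵀ * C * M = C) (j : ℕ) : (M ^ j)ᵀ * C * M ^ j = C := by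
  induction j with
  | zero => simp
  | succ j ih =>
    rw [pow_succ, transpose_mul]
    calc Mᵀ * (M ^ j)ᵀ * C * (M ^ j * M) = Mᵀ * ((M ^ j)ᵀ * C * M ^ j) * M := by simp only [Matrix.mul_assoc]
      _ = C := by rw [ih, hM]

/-- the form `x, M^j x` -/
theorem form_neg (hs : Cᵀ = C) (hM : Mᵀ * C * M = C) (h8 : M ^ 8 = -1) {i j : ℕ} (hij : i + j = 8) (x : Fin 8 → ℤ) :
    x ⬝ᵥ ((C * M ^ i) *ᵥ x) = - (x ⬝ᵥ ((C * M ^ j) *ᵥ x)) := by
  have h1 : C * M ^ i = - (C * M ^ j)ᵀ := by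
    have h2 := pow_isom hM j
    have h3 : (M ^ j)ᵀ * C * M ^ j * M ^ i = C * M ^ i := by rw [h2]
    rw [Matrix.mul_assoc, ← pow_add, add_comm j i, hij, h8, Matrix.mul_neg, Matrix.mul_one] at h3
    rw [← h3, transpose_mul, hs]
  rw [h1, neg_mulVec, dotProduct_neg, mulVec_transpose, dotProduct_mulVec x (C * M ^ j) x,
    dotProduct_comm x (x ᵥ* (C * M ^ j))]

/-- the sum of the powers -/
def S (M : Mt ℤ) : Mt ℤ := ∑ j ∈ Finset.range 8, M ^ j

theorem form_S (hs : Cᵀ = C) (hM : Mᵀ * C * M = C) (h8 : M ^ 8 = -1) (x : Fin 8 → ℤ) :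
    x ⬝ᵥ ((C * S M) *ᵥ x) = x ⬝ᵥ (C *ᵥ x) := by
  have h0 : C * S M = C * M ^ 0 + C * M ^ 1 + C * M ^ 2 + C * M ^ 3 + C * M ^ 4 + C * M ^ 5 + C * M ^ 6 + C * M ^ 7 := by
    unfold S
    simp only [Finset.sum_range_succ, Finset.sum_range_zero, zero_add, Matrix.mul_add]
  rw [h0]
  simp only [add_mulVec, dotProduct_add]
  have h7 := form_neg hs hM h8 (show 7 + 1 = 8 from rfl) x
  have h6 := form_neg hs hM h8 (show 6 + 2 = 8 from rfl) x
  have h5 := form_neg hs hM h8 (show 5 + 3 = 8 from rfl) x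
  have h4 := form_neg hs hM h8 (show 4 + 4 = 8 from rfl) x
  rw [pow_zero, Matrix.mul_one]
  omega

theorem S_mul (h8 : M ^ 8 = -1) : S M * (M - 1) = -((2 : ℤ) • (1 : Mt ℤ)) := by
  unfold S
  rw [geom_sum_mul, h8]
  module

theorem exists_div {A : Mt ℤ} (h : red A = 0) : ∃ Y : Mt ℤ, A = (2 : ℤ) • Y := by
  have h1 : ∀ i j, ∃ y : ℤ, A i j = 2 * y := by
    intro i j
    have h2 : (A i j : ZMod 2) = 0 := congrFun (congrFun h i) j
    exact (ZMod.intCast_zmod_eq_zero_iff_dvd _ 2).1 h2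
  choose Y hY using h1
  refine ⟨Matrix.of Y, ?_⟩
  ext i j
  rw [hY i j]
  rfl

theorem pow_eight_sub (N : Mt (ZMod 2)) : (N - 1) ^ 8 = N ^ 8 - 1 := by
  have h2 := sub_pow_char_pow_of_commute 2 3 (Commute.one_right N)
  norm_num at h2
  exact h2

theorem red_pow_eight (h8 : M ^ 8 = -1) : (red M - 1) ^ 8 = 0 := by
  rw [pow_eight_sub, ← map_pow, h8, map_neg, map_one, ← neg_add']
  rw [CharTwo.add_self_eq_zero, neg_zero]

theorem red_S_ne (h8 : M ^ 8 = -1) : red (S M) ≠ 0 := by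
  intro h
  obtain ⟨Y, hY⟩ := exists_div h
  have h1 := S_mul h8
  rw [hY, smul_mul, ← smul_neg] at h1
  have h2 : Y * (M - 1) = -1 := smul_right_injective _ (two_ne_zero : (2 : ℤ) ≠ 0) h1
  have h3 := congrArg red h2
  rw [map_mul, map_sub, map_one, map_neg, map_one] at h3
  have h4 := congrArg (fun A => A.det ^ 8) h3
  simp only [det_mul, mul_pow] at h4
  rw [← det_pow (red M - 1), red_pow_eight h8, det_zero, mul_zero] at h4
  have h5 : ((-1 : Mt (ZMod 2)).det) = 1 := by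
    rw [det_neg, det_one]; decide
  rw [h5] at h4
  exact absurd h4 (by decide)

theorem poly_id : (∑ j ∈ Finset.range 8, (X : (ZMod 2)[X]) ^ j) = (X - 1) ^ 7 := by
  have h1 : (∑ j ∈ Finset.range 8, (X : (ZMod 2)[X]) ^ j) * (X - 1) = (X - 1) ^ 7 * (X - 1) := by
    rw [geom_sum_mul, ← pow_succ]
    have h2 := sub_pow_char_pow (X : (ZMod 2)[X]) 1 (p := 2) (n := 3)
    norm_num at h2
    exact h2.symm
  exact mul_right_cancel₀ (X_sub_C_ne_zero (1 : ZMod 2)) (by rwa [C_1])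

theorem red_S : red (S M) = (red M - 1) ^ 7 := by
  unfold S
  have h := congrArg (aeval (red M)) poly_id
  rw [map_sum] at h
  simpa using h

/-- nilpotent of maximal class: the powers on a vector form a basis -/
theorem span_top {N : Mt (ZMod 2)} (h8 : N ^ 8 = 0) {v : Fin 8 → ZMod 2} (hv : (N ^ 7) *ᵥ v ≠ 0) :
    Submodule.span (ZMod 2) (Set.range fun i : Fin 8 => (N ^ (i : ℕ)) *ᵥ v) = ⊤ := by
  have hli : LinearIndependent (ZMod 2) (fun i : Fin 8 => (N ^ (i : ℕ)) *ᵥ v) := by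
    rw [Fintype.linearIndependent_iff]
    intro f hf
    have key : ∀ n : ℕ, ∀ i : Fin 8, (i : ℕ) < n → f i = 0 := by
      intro n
      induction n with
      | zero => intro i hi; exact absurd hi (Nat.not_lt_zero _)
      | succ n ih =>
        intro i hi
        rcases Nat.lt_succ_iff_lt_or_eq.1 hi with h | h
        · exact ih i h
        · have h1 := congrArg (fun w => (N ^ (7 - (i : ℕ))) *ᵥ w) hf
          simp only [mulVec_zero] at h1
          rw [mulVec_sum] at h1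
          rw [Finset.sum_eq_single i] at h1
          · rw [mulVec_smul, mulVec_mulVec, ← pow_add, Nat.sub_add_cancel (by omega)] at h1
            exact (smul_eq_zero.1 h1).resolve_right hv
          · intro j _ hj
            rcases lt_or_ge (j : ℕ) n with h2 | h2
            · rw [ih j h2, zero_smul, mulVec_zero]
            · have h3 : (j : ℕ) ≠ i := fun e => hj (Fin.ext e)
              rw [mulVec_smul, mulVec_mulVec, ← pow_add, show 7 - (i : ℕ) + j = 8 + (j - i - 1) by omega, pow_add, h8,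
                zero_mul, zero_mulVec, smul_zero]
          · intro h2
            exact absurd (Finset.mem_univ i) h2
    exact fun i => key 8 i i.2
  exact hli.span_eq_top_of_card_eq_finrank' (by simp)

/-- **no `M ^ 8 = - 1`** in an even unimodular lattice of rank 8 -/
theorem no_sixteen {D : Mt ℤ} (hs : Cᵀ = C) (he : ∀ i, Even (C i i)) (hC : D * C = 1) (hM : Mᵀ * C * M = C) :
    M ^ 8 ≠ -1 := by
  intro h8
  set m := red M with hm
  set c := red C with hc
  have hN := red_pow_eight h8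
  have hne := red_S_ne h8
  have hsN := red_S (M := M)
  rw [hsN] at hne
  obtain ⟨v, hv⟩ : ∃ v, ((m - 1) ^ 7) *ᵥ v ≠ 0 := by
    by_contra hall
    push Not at hall
    apply hne
    ext i j
    have h1 := congrFun (hall (Pi.single j 1)) i
    rw [mulVec_single_one] at h1
    exact h1
  have hspan := span_top hN hv
  -- the form
  have hcm : mᵀ * c * m = c := by
    have h1 := congrArg red hM
    rw [map_mul, map_mul] at h1
    have h2 : red Mᵀ = mᵀ := by ext i j; rfl
    rwa [h2] at h1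
  have hmS : m * (m - 1) ^ 7 = (m - 1) ^ 7 := by
    have h1 : (m - 1) * (m - 1) ^ 7 = 0 := by rw [← pow_succ']; exact hN
    rw [sub_mul, one_mul] at h1
    exact sub_eq_zero.1 h1
  have hall : ∀ u : Fin 8 → ZMod 2, u ⬝ᵥ ((c * (m - 1) ^ 7) *ᵥ v) = 0 := by
    intro u
    have hu : u ∈ Submodule.span (ZMod 2) (Set.range fun i : Fin 8 => ((m - 1) ^ (i : ℕ)) *ᵥ v) := by
      rw [hspan]; trivial
    induction hu using Submodule.span_induction with
    | mem w hw =>
      obtain ⟨i, rfl⟩ := hw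
      rcases Nat.eq_zero_or_pos (i : ℕ) with h | h
      · simp only [h, pow_zero, one_mulVec]
        -- `v, S v`
        have h1 : ∃ x : Fin 8 → ℤ, ∀ i, (x i : ZMod 2) = v i := ⟨fun i => (v i).val, fun i => by simp⟩
        obtain ⟨x, hx⟩ := h1
        have h2 := form_S hs hM h8 x
        have h3 := even_form hs he x
        rw [← h2] at h3
        have h4 : ((x ⬝ᵥ ((C * S M) *ᵥ x) : ℤ) : ZMod 2) = 0 :=
          (ZMod.intCast_zmod_eq_zero_iff_dvd _ 2).2 h3.two_dvd
        have h5 : ((x ⬝ᵥ ((C * S M) *ᵥ x) : ℤ) : ZMod 2) = v ⬝ᵥ (red (C * S M) *ᵥ v) := by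
          simp only [dotProduct, mulVec, Int.cast_sum, Int.cast_mul, hx]
          rfl
        rw [h5, map_mul, hsN] at h4
        exact h4
      · obtain ⟨j, hj⟩ : ∃ j, (i : ℕ) = j + 1 := ⟨i - 1, by omega⟩
        simp only [hj]
        generalize hw : (m - 1) ^ j *ᵥ v = w
        have h1 : (m - 1) ^ (j + 1) *ᵥ v = m *ᵥ w - w := by
          rw [pow_succ', ← mulVec_mulVec, hw, sub_mulVec, one_mulVec]
        rw [h1, sub_dotProduct]
        have h2 : (m *ᵥ w) ⬝ᵥ ((c * (m - 1) ^ 7) *ᵥ v) = w ⬝ᵥ ((c * (m - 1) ^ 7) *ᵥ v) := by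
          conv_lhs => rw [← hmS]
          rw [← vecMul_transpose, ← dotProduct_mulVec, mulVec_mulVec, ← Matrix.mul_assoc, ← Matrix.mul_assoc, hcm]
        rw [h2, sub_self]
    | zero => exact zero_dotProduct _
    | add a b _ _ ha hb => rw [add_dotProduct, ha, hb, add_zero]
    | smul a b _ hb => rw [smul_dotProduct, hb, smul_zero]
  have h1 : (c * (m - 1) ^ 7) *ᵥ v = 0 := by
    funext i
    have := hall (Pi.single i 1)
    rwa [single_one_dotProduct] at this
  apply hv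
  have h2 := congrArg (fun w => red D *ᵥ w) h1
  simp only [mulVec_mulVec, mulVec_zero] at h2
  rw [← Matrix.mul_assoc, hc, ← map_mul, hC, map_one, Matrix.one_mul] at h2
  exact h2

end Cfsg.Agent.H189.Sixteen
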