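import Cfsg.Agent.H189.T3aCount

/-!
# The multiplicities: `(12, 4, 1, 0, 0, 0, 2)`
-/

set_option autoImplicit false

namespace Cfsg.Agent.H189.T3a

open Cfsg.Agent.H190.E6 Cfsg.Agent.H224.E8 Module

/-- the number of weights with `k` non-zero coordinates and property `p` -/
def cnt (p : (Fin 6 → ZMod 3) → Bool) (k : ℕ) : ℕ :=
  (Finset.univ.filter fun c : Fin 6 → ZMod 3 => p c = true ∧ nz c = k).card

theorem cnt_all : List.map (cnt fun _ => true) [0, 1, 2, 3, 4, 5, 6] = [1, 12, 60, 160, 240, 192, 64] := by decide +kernel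
theorem cnt_b1 : List.map (cnt fun c => c 0 + c 0 + c 1 == 0) [0, 1, 2, 3, 4, 5, 6] = [1, 8, 26, 48, 64, 64, 32] := by
  decide +kernel
theorem cnt_b2 : List.map (cnt fun c => c 3 + c 3 + c 4 == 0) [0, 1, 2, 3, 4, 5, 6] = [1, 8, 26, 48, 64, 64, 32] := by
  decide +kernel
theorem cnt_z1 : List.map (cnt fun c => c 0 + c 1 + c 2 == 0) [0, 1, 2, 3, 4, 5, 6] = [1, 6, 18, 46, 84, 72, 16] := by
  decide +kernel
theorem cnt_z2 : List.map (cnt fun c => c 3 + c 4 + c 5 == 0) [0, 1, 2, 3, 4, 5, 6] = [1, 6, 18, 46, 84, 72, 16] := by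
  decide +kernel

theorem num {d0 d1 d2 d3 d4 d5 d6 A B : ℕ} (h : d0 + 12 * d1 + 60 * d2 + 160 * d3 + 240 * d4 + 192 * d5 + 64 * d6 = 248)
    (hA : d0 + 8 * d1 + 26 * d2 + 48 * d3 + 64 * d4 + 64 * d5 + 32 * d6 = A)
    (hB : d0 + 6 * d1 + 18 * d2 + 46 * d3 + 84 * d4 + 72 * d5 + 16 * d6 = B)
    (hA' : A = 80 ∨ A = 86 ∨ A = 92 ∨ A = 134) (hB' : B = 80 ∨ B = 86 ∨ B = 92 ∨ B = 134) :
    d3 = 0 ∧ d4 = 0 ∧ d5 = 0 ∧ d6 = 2 := by
  have e3 : d3 ≤ 1 := by omega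
  have e4 : d4 ≤ 1 := by omega
  have e5 : d5 ≤ 1 := by omega
  have e6 : d6 ≤ 3 := by omega
  have e2 : d2 ≤ 4 := by omega
  interval_cases d3 <;> interval_cases d4 <;> interval_cases d5 <;> interval_cases d6 <;> interval_cases d2 <;> omega

end Cfsg.Agent.H189.T3a
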