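import Cfsg.Agent.H189.T3aLemma
import Cfsg.Agent.H189.T3aNum
import Cfsg.Agent.H189.NoNineteen
import Cfsg.Agent.H186.ExcClass
import Cfsg.Agent.H186.FusEmb

/-!
# Part T3a of S2654: the multiplicities of the weights of `3^6 ≤ A₁₈ ≤ E₈(q)`
-/

set_option autoImplicit false

namespace Cfsg.Agent.H189.T3a

open Cfsg.Lie Cfsg.Agent.ChevalleyStructure Cfsg.Agent.ChevalleyStructure.Elts Cfsg.Agent.H190 Cfsg.Agent.H186
  Cfsg.Agent.ChevalleyStructure.RootCombGood Cfsg.Agent.ChevalleyStructure.RootWord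
  Cfsg.Agent.ChevalleyStructure.RootComb Cfsg.Agent.ChevalleyStructure.NPerm
  Cfsg.Agent.H189.ExcLift Cfsg.Agent.H189.NoNineteen Cfsg.Agent.H224.E8 Cfsg.Agent.H190.E6 Matrix Module

universe u

section diag

variable {K : Type u} [Field K]

theorem finrank_eigen_diag {n : Type*} [Fintype n] [DecidableEq n] [DecidableEq K] (d : n → K) :
    finrank K (Module.End.eigenspace ((diagonal d).mulVecLin : Module.End K (n → K)) 1) =
      (Finset.univ.filter fun i => d i = 1).card := by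
  have h1 : Module.End.eigenspace ((diagonal d).mulVecLin : Module.End K (n → K)) 1 =
      LinearMap.ker (diagonal fun i => d i - 1).mulVecLin := by
    ext v
    rw [Module.End.mem_eigenspace_iff, one_smul, LinearMap.mem_ker, mulVecLin_apply, mulVecLin_apply]
    constructor
    · intro h
      funext i
      have := congrFun h i
      rw [mulVec_diagonal] at this ⊢
      rw [sub_mul, one_mul, this, sub_self]
      rfl
    · intro h
      funext i
      have := congrFun h i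
      rw [mulVec_diagonal] at this ⊢
      rw [sub_mul, one_mul] at this
      exact sub_eq_zero.1 this
  have h2 := LinearMap.finrank_range_add_finrank_ker (diagonal fun i => d i - 1).mulVecLin
  have h3 := Matrix.rank_diagonal (fun i => d i - 1)
  rw [Matrix.rank] at h3
  rw [h3, Module.finrank_fintype_fun_eq_card, Fintype.card_subtype] at h2
  rw [h1]
  have h4 := Finset.card_filter_add_card_filter_not (s := (Finset.univ : Finset n)) (fun i => d i = 1)
  have h5 : (Finset.univ.filter fun i => d i - 1 ≠ 0) = (Finset.univ.filter fun i => ¬ d i = 1) := by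
    ext i
    simp [sub_eq_zero]
  rw [h5] at h2
  rw [Finset.card_univ] at h4
  omega

end diag

section rep

variable {K : Type u} [Field K]

/-- **toral elements of order 3** -/
theorem finrank_toral {w : K} (hw : IsPrimitiveRoot w 3) {t : GL chevE8.Idx K} (ht : t ∈ chevE8.diagonalSubgroup K)
    (ht3 : t ^ 3 = 1) :
    finrank K (Module.End.eigenspace ((t : Matrix chevE8.Idx chevE8.Idx K).mulVecLin : Module.End K (chevE8.Idx → K)) 1) ∈
      [80, 86, 92, 134, 248] := by
  classical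
  obtain ⟨χ, h0, h1⟩ := HDiag.exists_dmat chevE8 inE8 t ht
  obtain ⟨x, hx⟩ := exists_vec inE8 slE8 (by norm_num) hw ht ht3
  have hc := class3 x
  rw [h1, HDiag.dmat_def, finrank_eigen_diag]
  have hcard : (Finset.univ.filter fun i : chevE8.Idx => Sum.elim (fun _ => (1 : K)) χ i = 1).card =
      8 + N1 chevE8 3 x 0 := by
    have ea : ∑ i : Fin chevE8.rank, (if Sum.elim (fun _ => (1 : K)) χ (Sum.inl i) = 1 then 1 else 0) = 8 := by
      simp only [Sum.elim_inl, if_true, Finset.sum_const, Finset.card_univ, Fintype.card_fin, smul_eq_mul, mul_one]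
      exact rk
    have eb : ∑ r : Fin chevE8.nroots, (if Sum.elim (fun _ : Fin chevE8.rank => (1 : K)) χ (Sum.inr r) = 1 then 1 else 0) =
        N1 chevE8 3 x 0 := by
      unfold N1
      rw [Finset.card_filter]
      refine Finset.sum_congr rfl fun r _ => ?_
      rw [Sum.elim_inr, ← ent_of_dmat h1 r, hx r]
      refine if_congr ?_ rfl rfl
      rw [hw.zpow_eq_one_iff_dvd, ← ZMod.intCast_zmod_eq_zero_iff_dvd]
    rw [Finset.card_filter, Fintype.sum_sum_type, ea, eb]
  rw [hcard]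
  simp only [List.mem_cons, List.not_mem_nil, or_false] at hc ⊢
  omega

theorem iso_pw {n : ↥(chevE8.group K)} (hn : n ∈ NG chevE8 K) : Iso (pw inE8 hn) := by
  have hn' : n⁻¹ ∈ NG chevE8 K := Subgroup.inv_mem _ hn
  have h := iso_inv_pw hn'
  have e : (pw inE8 hn')⁻¹ = pw inE8 hn := by
    unfold pw
    rw [← map_inv]
    exact congrArg _ (Subtype.ext (inv_inv _))
  rwa [e] at h

theorem pw_eq_one {n : ↥(chevE8.group K)} (hn : n ∈ NG chevE8 K) (h : pw inE8 hn = 1) : n ∈ TG chevE8 K := by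
  have h1 : (⟨n, hn⟩ : ↥(chevE8.monomialSubgroup K)) ∈ (permHom inE8 K).ker := h
  rw [ker_permHom] at h1
  exact h1

theorem Rep.eq_one {v : Equiv.Perm (Fin chevE8.nroots)} (h : Rep v 1) : v = 1 := by
  apply Equiv.ext
  intro r
  apply Fin.ext
  have h1 := h r
  rw [one_mulVec] at h1
  refine (goodE8.co_inj r.2 (v r).2 fun j hj => ?_).symm
  rw [rk] at hj
  exact congrFun h1 ⟨j, hj⟩

variable (E : FusEmb chevE8 K 18 P18)

theorem exists_theta (q : ↥P18) : ∃ M, Rep (pw inE8 (E.mem q)) M := (iso_pw (E.mem q)).2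

/-- the action of `P18` on the root lattice -/
noncomputable def theta (q : ↥P18) : Matrix (Fin 8) (Fin 8) ℤ := Classical.choose (exists_theta E q)

theorem theta_rep (q : ↥P18) : Rep (pw inE8 (E.mem q)) (theta E q) := Classical.choose_spec (exists_theta E q)

theorem theta_mul (p q : ↥P18) : theta E (p * q) = theta E p * theta E q := by
  have h1 := theta_rep E (p * q)
  have h2 := (theta_rep E p).mul (theta_rep E q)
  have e : pw inE8 (E.mem (p * q)) = pw inE8 (E.mem p) * pw inE8 (E.mem q) := by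
    unfold pw
    rw [← map_mul]
    congr 1
    apply Subtype.ext
    show ((E.s (p * q) : ↥(chevE8.group K)) : GL chevE8.Idx K) = _
    rw [map_mul]
    rfl
  rw [e] at h1
  exact h1.unique h2

theorem theta_one : theta E 1 = 1 := by
  have h1 := theta_rep E 1
  have e : pw inE8 (E.mem 1) = 1 := by
    unfold pw
    rw [← map_one (permHom inE8 K)]
    congr 1
    apply Subtype.ext
    show ((E.s 1 : ↥(chevE8.group K)) : GL chevE8.Idx K) = _
    rw [map_one]
    rfl
  rw [e] at h1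
  exact h1.unique Rep.one

theorem theta_pow (q : ↥P18) (m : ℕ) : theta E (q ^ m) = theta E q ^ m := by
  induction m with
  | zero => rw [pow_zero, pow_zero, theta_one]
  | succ m ih => rw [pow_succ, pow_succ, theta_mul, ih]

theorem mem_TG_of_theta {q : ↥P18} (h : theta E q = 1) : E.s q ∈ TG chevE8 K := by
  have h1 := theta_rep E q
  rw [h] at h1
  exact pw_eq_one (E.mem q) (Rep.eq_one h1)

/-- the elements -/
def tr (i j k : Fin 6) : ↥P18 := xP i * xP j * xP k

end rep

/-! ### relations in `P18` -/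

theorem ext18 {p q : ↥P18} (h : ((p : ↥(alternatingGroup (Fin 18))) : Equiv.Perm (Fin 18)) = q) : p = q :=
  Subtype.ext (Subtype.ext h)

theorem tr_cube (i j k : Fin 6) : tr i j k ^ 3 = 1 := by
  apply ext18
  have h : ∀ i j k : Fin 6, (xp i * xp j * xp k) ^ 3 = 1 := by decide +kernel
  exact h i j k

theorem xP_comm (i j : Fin 6) : xP i * xP j = xP j * xP i := Subtype.ext (x_comm i j)

theorem tr_comm (i j k : Fin 6) (q : ↥P18) (hi : xP i * q = q * xP i) (hj : xP j * q = q * xP j)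
    (hk : xP k * q = q * xP k) : tr i j k * q = q * tr i j k :=
  ((show Commute (xP i) q from hi).mul_left (show Commute (xP j) q from hj)).mul_left (show Commute (xP k) q from hk)

theorem tr_comm_x (i j k l : Fin 6) : tr i j k * xP l = xP l * tr i j k :=
  tr_comm i j k _ (xP_comm _ _) (xP_comm _ _) (xP_comm _ _)

theorem tr_comm_tr (i j k i' j' k' : Fin 6) : tr i j k * tr i' j' k' = tr i' j' k' * tr i j k :=
  (tr_comm i' j' k' _ (tr_comm_x _ _ _ _).symm (tr_comm_x _ _ _ _).symm (tr_comm_x _ _ _ _).symm).symm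

theorem zA_c : tr 0 1 2 * cP = cP * tr 0 1 2 := ext18 (by decide +kernel)
theorem zA_d : tr 0 1 2 * dP = dP * tr 0 1 2 := ext18 (by decide +kernel)
theorem zB_c : tr 3 4 5 * cP = cP * tr 3 4 5 := ext18 (by decide +kernel)
theorem zB_d : tr 3 4 5 * dP = dP * tr 3 4 5 := ext18 (by decide +kernel)
theorem bA_d : tr 0 0 1 * dP = dP * tr 0 0 1 := ext18 (by decide +kernel)
theorem bB_c : tr 3 3 4 * cP = cP * tr 3 3 4 := ext18 (by decide +kernel)
theorem x0_d : xP 0 * dP = dP * xP 0 := ext18 (by decide +kernel)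
theorem x3_c : xP 3 * cP = cP * xP 3 := ext18 (by decide +kernel)
theorem rel_c1 : cP * tr 0 0 1 = tr 0 1 2 * tr 0 0 1 * cP := ext18 (by decide +kernel)
theorem rel_d1 : dP * tr 3 3 4 = tr 3 4 5 * tr 3 3 4 * dP := ext18 (by decide +kernel)
theorem rel_c0 : cP * xP 0 = tr 0 0 1 * xP 0 * cP := ext18 (by decide +kernel)
theorem rel_d0 : dP * xP 3 = tr 3 3 4 * xP 3 * dP := ext18 (by decide +kernel)

theorem tr_ne (i j k : Fin 6) (h : (i, j, k) ∈ [((0 : Fin 6), (1 : Fin 6), (2 : Fin 6)), (3, 4, 5), (0, 0, 1), (3, 3, 4)]) :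
    tr i j k ≠ 1 := by
  have key : ∀ i j k : Fin 6, (i, j, k) ∈ [((0 : Fin 6), (1 : Fin 6), (2 : Fin 6)), (3, 4, 5), (0, 0, 1), (3, 3, 4)] →
      xp i * xp j * xp k ≠ 1 := by decide +kernel
  intro h1
  exact key i j k h (congrArg (fun q : ↥P18 => ((q : ↥(alternatingGroup (Fin 18))) : Equiv.Perm (Fin 18))) h1)

section main

variable {K : Type u} [Field K] (E : FusEmb chevE8 K 18 P18)

theorem theta_comm {p q : ↥P18} (h : p * q = q * p) : theta E p * theta E q = theta E q * theta E p := by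
  rw [← theta_mul, h, theta_mul]

theorem heis (A g h B g' h' : ↥P18) (hA3 : A ^ 3 = 1) (hB3 : B ^ 3 = 1) (hg3 : g ^ 3 = 1) (hg3' : g' ^ 3 = 1)
    (hAB : A * B = B * A) (hAg : A * g = g * A) (hAg' : A * g' = g' * A)
    (hBg : B * g = g * B) (hBg' : B * g' = g' * B) (hgg' : g * g' = g' * g)
    (hAh : theta E A * theta E h = theta E h * theta E A) (hBh : B * h = h * B) (hg'h : g' * h = h * g')
    (hAh' : A * h' = h' * A) (hBh' : theta E B * theta E h' = theta E h' * theta E B) (hgh' : g * h' = h' * g)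
    (hrel : h * g = A * g * h) (hrel' : h' * g' = B * g' * h') : theta E A = 1 ∨ theta E B = 1 := by
  have hp : ∀ q : ↥P18, q ^ 3 = 1 → theta E q ^ 3 = 1 := fun q hq => by rw [← theta_pow, hq, theta_one]
  have hi : ∀ q : ↥P18, ∃ x, x * theta E q = 1 := fun q => ⟨theta E q⁻¹, by rw [← theta_mul, inv_mul_cancel, theta_one]⟩
  exact two_heis (hp A hA3) (hp B hB3) (hp g hg3) (hp g' hg3') (hi h) (hi h') (theta_comm E hAB) (theta_comm E hAg)
    (theta_comm E hAg') (theta_comm E hBg) (theta_comm E hBg') (theta_comm E hgg') hAh (theta_comm E hBh)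
    (theta_comm E hg'h) (theta_comm E hAh') hBh' (theta_comm E hgh')
    (by rw [← theta_mul, hrel, theta_mul, theta_mul]) (by rw [← theta_mul, hrel', theta_mul, theta_mul])

theorem dich : (theta E (tr 0 1 2) = 1 ∧ theta E (tr 0 0 1) = 1) ∨ (theta E (tr 3 4 5) = 1 ∧ theta E (tr 3 3 4) = 1) := by
  have hx3 : ∀ i, xP i ^ 3 = 1 := fun i => Subtype.ext (x_cube i)
  have hcA : theta E (tr 0 1 2) = 1 → theta E (tr 0 0 1) * theta E cP = theta E cP * theta E (tr 0 0 1) := by
    intro h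
    rw [← theta_mul E cP, rel_c1, theta_mul, theta_mul, h, one_mul]
  have hdB : theta E (tr 3 4 5) = 1 → theta E (tr 3 3 4) * theta E dP = theta E dP * theta E (tr 3 3 4) := by
    intro h
    rw [← theta_mul E dP, rel_d1, theta_mul, theta_mul, h, one_mul]
  have H2 : theta E (tr 0 1 2) = 1 → theta E (tr 3 4 5) = 1 → theta E (tr 0 0 1) = 1 ∨ theta E (tr 3 3 4) = 1 :=
    fun hz hz' => heis E (tr 0 0 1) (xP 0) cP (tr 3 3 4) (xP 3) dP (tr_cube _ _ _) (tr_cube _ _ _) (hx3 _) (hx3 _)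
      (tr_comm_tr _ _ _ _ _ _) (tr_comm_x _ _ _ _) (tr_comm_x _ _ _ _) (tr_comm_x _ _ _ _) (tr_comm_x _ _ _ _)
      (xP_comm _ _) (hcA hz) bB_c x3_c bA_d (hdB hz') x0_d rel_c0 rel_d0
  rcases heis E (tr 0 1 2) (tr 0 0 1) cP (tr 3 4 5) (tr 3 3 4) dP (tr_cube _ _ _) (tr_cube _ _ _) (tr_cube _ _ _)
    (tr_cube _ _ _) (tr_comm_tr _ _ _ _ _ _) (tr_comm_tr _ _ _ _ _ _) (tr_comm_tr _ _ _ _ _ _) (tr_comm_tr _ _ _ _ _ _)
    (tr_comm_tr _ _ _ _ _ _) (tr_comm_tr _ _ _ _ _ _) (theta_comm E zA_c) zB_c bB_c zA_d (theta_comm E zB_d) bA_d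
    rel_c1 rel_d1 with hz | hz'
  · by_cases hb : theta E (tr 0 0 1) = 1
    · exact Or.inl ⟨hz, hb⟩
    by_cases hz' : theta E (tr 3 4 5) = 1
    · exact Or.inr ⟨hz', (H2 hz hz').resolve_left hb⟩
    · rcases heis E (tr 0 0 1) (xP 0) cP (tr 3 4 5) (tr 3 3 4) dP (tr_cube _ _ _) (tr_cube _ _ _) (hx3 _)
        (tr_cube _ _ _) (tr_comm_tr _ _ _ _ _ _) (tr_comm_x _ _ _ _) (tr_comm_tr _ _ _ _ _ _) (tr_comm_x _ _ _ _)
        (tr_comm_tr _ _ _ _ _ _) (tr_comm_x _ _ _ _).symm (hcA hz) zB_c bB_c bA_d (theta_comm E zB_d) x0_d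
        rel_c0 rel_d1 with h | h
      · exact absurd h hb
      · exact absurd h hz'
  · by_cases hb : theta E (tr 3 3 4) = 1
    · exact Or.inr ⟨hz', hb⟩
    by_cases hz : theta E (tr 0 1 2) = 1
    · exact Or.inl ⟨hz, (H2 hz hz').resolve_right hb⟩
    · rcases heis E (tr 0 1 2) (tr 0 0 1) cP (tr 3 3 4) (xP 3) dP (tr_cube _ _ _) (tr_cube _ _ _) (tr_cube _ _ _)
        (hx3 _) (tr_comm_tr _ _ _ _ _ _) (tr_comm_tr _ _ _ _ _ _) (tr_comm_x _ _ _ _) (tr_comm_tr _ _ _ _ _ _)
        (tr_comm_x _ _ _ _) (tr_comm_x _ _ _ _) (theta_comm E zA_c) bB_c x3_c zA_d (hdB hz') bA_d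
        rel_c1 rel_d0 with h | h
      · exact absurd h hz
      · exact absurd h hb

/-- the representation of `P18` on `K ^ 248` -/
noncomputable def rho : ↥P18 →* Module.End K (chevE8.Idx → K) :=
  ((Matrix.toLinAlgEquiv' : Matrix chevE8.Idx chevE8.Idx K ≃ₐ[K] _).toAlgHom.toMonoidHom).comp
    ((Units.coeHom _).comp ((chevE8.group K).subtype.comp E.s))

theorem rho_apply (q : ↥P18) : rho E q = (((E.s q : ↥(chevE8.group K)) : GL chevE8.Idx K) :
    Matrix chevE8.Idx chevE8.Idx K).mulVecLin := rfl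

theorem rho_fus : Fus (rho E) := by
  intro a Q hQ hQ'
  obtain ⟨h, hh⟩ := E.fus a Q hQ hQ'
  let g : GL chevE8.Idx K := h
  refine ⟨LinearEquiv.ofLinearMap ((g : Matrix chevE8.Idx chevE8.Idx K).mulVecLin)
    (((g⁻¹ : GL chevE8.Idx K) : Matrix chevE8.Idx chevE8.Idx K).mulVecLin) ?_ ?_, ?_⟩
  · rw [← mulVecLin_mul, ← Units.val_mul, mul_inv_cancel, Units.val_one, mulVecLin_one]
  · rw [← mulVecLin_mul, ← Units.val_mul, inv_mul_cancel, Units.val_one, mulVecLin_one]
  · intro q hq v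
    have h1 : g * ((E.s ⟨q, hQ hq⟩ : ↥(chevE8.group K)) : GL chevE8.Idx K) =
        ((E.s ⟨a * q * a⁻¹, hQ' q hq⟩ : ↥(chevE8.group K)) : GL chevE8.Idx K) * g := by
      rw [← hh q hq]
      simp only [Subgroup.coe_mul, Subgroup.coe_inv]
      exact (inv_mul_cancel_right _ _).symm
    have h2 := congrArg (fun x : GL chevE8.Idx K => (x : Matrix chevE8.Idx chevE8.Idx K)) h1
    simp only [Units.val_mul] at h2
    show (g : Matrix chevE8.Idx chevE8.Idx K) *ᵥ (_ *ᵥ v) = _ *ᵥ ((g : Matrix chevE8.Idx chevE8.Idx K) *ᵥ v)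
    rw [mulVec_mulVec, mulVec_mulVec]
    exact congrArg (fun M : Matrix chevE8.Idx chevE8.Idx K => M *ᵥ v) h2

theorem rho_inj {q : ↥P18} (h : rho E q = 1) : q = 1 := by
  rw [rho_apply] at h
  apply E.inj
  rw [map_one]
  apply Subtype.ext
  apply Units.ext
  have h1 : Matrix.toLin' (((E.s q : ↥(chevE8.group K)) : GL chevE8.Idx K) : Matrix chevE8.Idx chevE8.Idx K) =
      Matrix.toLin' (1 : Matrix chevE8.Idx chevE8.Idx K) := by rw [toLin'_one]; exact h
  exact Matrix.toLin'.injective h1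

variable {w : K}

theorem wsp_eq (lam : Fin 6 → ZMod 3) : wsp w (rho E) lam = J w (fun i => rho E (xP i)) lam := by
  ext v
  rw [mem_wsp, mem_J]

theorem rho_x3 (i : Fin 6) : rho E (xP i) ^ 3 = 1 := by
  rw [← map_pow, show xP i ^ 3 = 1 from Subtype.ext (x_cube i), map_one]

theorem rho_comm (i j : Fin 6) : Commute (rho E (xP i)) (rho E (xP j)) := by
  show _ * _ = _ * _
  rw [← map_mul, ← map_mul, xP_comm]

theorem finrank_V : finrank K (chevE8.Idx → K) = 248 := by
  rw [Module.finrank_fintype_fun_eq_card]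
  show Fintype.card (Fin chevE8.rank ⊕ Fin chevE8.nroots) = 248
  rw [Fintype.card_sum, Fintype.card_fin, Fintype.card_fin]
  decide +kernel

theorem cnt_eq (p : (Fin 6 → ZMod 3) → Prop) [DecidablePred p] (b : (Fin 6 → ZMod 3) → Bool) (h : ∀ c, p c ↔ b c = true)
    (l : Fin 7) : (Finset.univ.filter fun c : Fin 6 → ZMod 3 => p c ∧ nz c = l).card = cnt b l := by
  unfold cnt
  rw [Finset.filter_congr fun c _ => and_congr_left' (h c)]

/-- the dimension of the fixed space of `x_i x_j x_k` -/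
theorem dims (hw : IsPrimitiveRoot w 3) (h3 : ((3 : ℕ) : K) ≠ 0) (i j k : Fin 6) :
    finrank K (Module.End.eigenspace (rho E (tr i j k)) 1) =
      ∑ l : Fin 7, cnt (fun c => c i + c j + c k == 0) l * dm w (rho E) (stdw l) := by
  have hadd : ∀ a b : ZMod 3, w ^ (a + b).val = w ^ a.val * w ^ b.val := by
    intro a b
    rw [ZMod.val_add, ← pow_add, ← pow_eq_pow_mod _ hw.pow_eq_one]
  have h1 := finrank_ker (T := fun i => rho E (xP i)) hw h3 (rho_x3 E) (rho_comm E) (e := rho E (tr i j k))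
    (by
      intro l
      show _ * _ = _ * _
      rw [← map_mul, ← map_mul, tr_comm_x])
    (fun c => c i + c j + c k)
    (by
      intro c v hv
      rw [mem_J] at hv
      unfold tr
      rw [map_mul, map_mul, Module.End.mul_apply, Module.End.mul_apply, hv k, map_smul, hv j, map_smul, map_smul, hv i,
        smul_smul, smul_smul, hadd, hadd]
      congr 1
      ring)
  rw [h1]
  have h2 := sum_dm (rho E) (rho_fus E) hw.pow_eq_one (fun c => c i + c j + c k = 0)
  have h4 : ∀ c : Fin 6 → ZMod 3, finrank K (J w (fun i => rho E (xP i)) c) = dm w (rho E) c := by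
    intro c
    unfold dm
    rw [wsp_eq]
  simp only [h4]
  rw [h2]
  refine Finset.sum_congr rfl fun l _ => ?_
  rw [cnt_eq (fun c : Fin 6 → ZMod 3 => c i + c j + c k = 0) (fun c => c i + c j + c k == 0) (fun c => beq_iff_eq.symm) l]

theorem total (hw : IsPrimitiveRoot w 3) (h3 : ((3 : ℕ) : K) ≠ 0) :
    ∑ l : Fin 7, cnt (fun _ => true) l * dm w (rho E) (stdw l) = 248 := by
  have h1 := sum_J3 (T := fun i => rho E (xP i)) hw h3 (rho_x3 E) (rho_comm E)
  rw [finrank_V] at h1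
  have h2 := sum_dm (rho E) (rho_fus E) hw.pow_eq_one (fun _ => True)
  have h4 : ∀ c : Fin 6 → ZMod 3, finrank K (J w (fun i => rho E (xP i)) c) = dm w (rho E) c := by
    intro c
    unfold dm
    rw [wsp_eq]
  simp only [h4] at h1
  rw [← h1]
  simp only [if_true] at h2
  rw [h2]
  refine Finset.sum_congr rfl fun l _ => ?_
  rw [cnt_eq (fun _ : Fin 6 → ZMod 3 => True) (fun _ => true) (fun c => by simp) l]

/-- the fixed space of a toral element -/
theorem toral_dim (hw : IsPrimitiveRoot w 3) {i j k : Fin 6} (h : theta E (tr i j k) = 1) (hne : tr i j k ≠ 1) :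
    finrank K (Module.End.eigenspace (rho E (tr i j k)) 1) ∈ [80, 86, 92, 134] := by
  have hT := mem_TG_of_theta E h
  have h3 : ((E.s (tr i j k) : ↥(chevE8.group K)) : GL chevE8.Idx K) ^ 3 = 1 := by
    have := congrArg (fun q => ((E.s q : ↥(chevE8.group K)) : GL chevE8.Idx K)) (tr_cube i j k)
    simp only [map_pow, map_one] at this
    exact this
  have h1 := finrank_toral hw hT h3
  have h2 : finrank K (Module.End.eigenspace (rho E (tr i j k)) 1) ≠ 248 := by
    intro h5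
    have h6 : Module.End.eigenspace (rho E (tr i j k)) 1 = ⊤ := by
      apply Submodule.eq_top_of_finrank_eq
      rw [h5, finrank_V]
    apply hne
    apply rho_inj E
    refine LinearMap.ext fun v => ?_
    have h7 : v ∈ Module.End.eigenspace (rho E (tr i j k)) 1 := by rw [h6]; trivial
    rwa [Module.End.mem_eigenspace_iff, one_smul] at h7
  rw [rho_apply] at h2 ⊢
  simp only [List.mem_cons, List.not_mem_nil, or_false] at h1 ⊢
  tauto

theorem list7 {f : ℕ → ℕ} {a0 a1 a2 a3 a4 a5 a6 : ℕ} (h : List.map f [0, 1, 2, 3, 4, 5, 6] = [a0, a1, a2, a3, a4, a5, a6])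
    (g : Fin 7 → ℕ) : ∑ l : Fin 7, f l * g l = a0 * g 0 + a1 * g 1 + a2 * g 2 + a3 * g 3 + a4 * g 4 + a5 * g 5 + a6 * g 6 := by
  simp only [List.map_cons, List.map_nil, List.cons.injEq, and_true] at h
  obtain ⟨rfl, rfl, rfl, rfl, rfl, rfl, rfl⟩ := h
  rw [Fin.sum_univ_seven]
  rfl

/-- **T3a** -/
theorem mult (hw : IsPrimitiveRoot w 3) (h3 : ((3 : ℕ) : K) ≠ 0) :
    dm w (rho E) (stdw 3) = 0 ∧ dm w (rho E) (stdw 4) = 0 ∧ dm w (rho E) (stdw 5) = 0 ∧ dm w (rho E) (stdw 6) = 2 := by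
  have ht := total E hw h3
  rw [list7 cnt_all] at ht
  have hmem : ∀ A : ℕ, A ∈ [80, 86, 92, 134] → A = 80 ∨ A = 86 ∨ A = 92 ∨ A = 134 := by
    intro A hA
    simpa using hA
  rcases dich E with ⟨hz, hb⟩ | ⟨hz, hb⟩
  · have e1 := dims E hw h3 0 0 1
    have e2 := dims E hw h3 0 1 2
    rw [list7 cnt_b1] at e1
    rw [list7 cnt_z1] at e2
    have f1 := hmem _ (toral_dim E hw hb (tr_ne _ _ _ (by simp)))
    have f2 := hmem _ (toral_dim E hw hz (tr_ne _ _ _ (by simp)))
    rw [e1] at f1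
    rw [e2] at f2
    exact num (by omega) (by omega) (by omega) f1 f2
  · have e1 := dims E hw h3 3 3 4
    have e2 := dims E hw h3 3 4 5
    rw [list7 cnt_b2] at e1
    rw [list7 cnt_z2] at e2
    have f1 := hmem _ (toral_dim E hw hb (tr_ne _ _ _ (by simp)))
    have f2 := hmem _ (toral_dim E hw hz (tr_ne _ _ _ (by simp)))
    rw [e1] at f1
    rw [e2] at f2
    exact num (by omega) (by omega) (by omega) f1 f2

end main

theorem exists_root {K : Type u} [Field K] [Fintype K] (h : 3 ∣ Fintype.card K - 1) :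
    ∃ w : K, IsPrimitiveRoot w 3 ∧ ((3 : ℕ) : K) ≠ 0 := by
  have : Fact (Nat.Prime 3) := ⟨Nat.prime_three⟩
  obtain ⟨u, hu⟩ := exists_prime_orderOf_dvd_card' (G := Kˣ) 3 (by rw [Nat.card_units, Nat.card_eq_fintype_card]; exact h)
  have h1 : IsPrimitiveRoot (u : K) 3 := by
    rw [IsPrimitiveRoot.coe_units_iff, ← hu]
    exact IsPrimitiveRoot.orderOf u
  refine ⟨u, h1, fun h3 => ?_⟩
  have h4 : ((u : K) - 1) ^ 3 = 0 := by
    have e : ((u : K) - 1) ^ 3 = (u : K) ^ 3 - 1 - ((3 : ℕ) : K) * ((u : K) ^ 2 - u) := by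
      push_cast
      ring
    rw [e, h3, h1.pow_eq_one]
    ring
  exact h1.ne_one (by norm_num) (sub_eq_zero.1 (pow_eq_zero_iff (by norm_num) |>.1 h4))

/-- **The hypotheses of T3b**: from a fusion-respecting embedding of `P18` in the monomial subgroup of `E₈(q)`. -/
theorem t3a {K : Type u} [Field K] [Fintype K] (h3 : 3 ∣ Fintype.card K - 1) (E : FusEmb chevE8 K 18 P18) :
    ∃ w : K, IsPrimitiveRoot w 3 ∧ Fus (rho E) ∧ (∀ lam, 3 ≤ nz lam → nz lam ≤ 5 → wsp w (rho E) lam = ⊥) ∧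
      ∀ lam, nz lam = 6 → finrank K (wsp w (rho E) lam) = 2 := by
  obtain ⟨w, hw, h3'⟩ := exists_root h3
  obtain ⟨m3, m4, m5, m6⟩ := mult E hw h3'
  refine ⟨w, hw, rho_fus E, fun lam h1 h2 => ?_, fun lam h6 => ?_⟩
  · apply Submodule.finrank_eq_zero.1
    show dm w (rho E) lam = 0
    have h4 : nz lam = 3 ∨ nz lam = 4 ∨ nz lam = 5 := by omega
    rcases h4 with h | h | h
    · rw [← m3]; exact dm_eq (rho E) (rho_fus E) hw.pow_eq_one (h.trans (nz_stdw 3).symm)
    · rw [← m4]; exact dm_eq (rho E) (rho_fus E) hw.pow_eq_one (h.trans (nz_stdw 4).symm)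
    · rw [← m5]; exact dm_eq (rho E) (rho_fus E) hw.pow_eq_one (h.trans (nz_stdw 5).symm)
  · rw [← m6]; exact dm_eq (rho E) (rho_fus E) hw.pow_eq_one (h6.trans (nz_stdw 6).symm)

end Cfsg.Agent.H189.T3a
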