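import Cfsg.Agent.H190.E6.Joint
import Cfsg.Agent.H224.E8Defs

/-!
# Weight multiplicities of the elementary abelian group `3^6` of `A₁₈`
-/

set_option autoImplicit false

namespace Cfsg.Agent.H189.T3a

open Cfsg.Agent.H190.E6 Cfsg.Agent.H224.E8 Module

section general

variable {K V ι : Type*} [Field K] [AddCommGroup V] [Module K V] [FiniteDimensional K V]

omit [FiniteDimensional K V] in
theorem iSup_single {w : K} (hw : IsPrimitiveRoot w 3) (h3 : (3 : K) ≠ 0) {T : Module.End K V} (hT : T ^ 3 = 1) :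
    ⨆ μ, T.maxGenEigenspace μ = ⊤ := by
  have hw3 : w ^ 3 = 1 := hw.pow_eq_one
  have hsum : 1 + w + w ^ 2 = 0 := by
    have h1 : (w - 1) * (1 + w + w ^ 2) = 0 := by ring_nf; rw [hw3]; ring
    rcases mul_eq_zero.1 h1 with h | h
    · exact absurd (sub_eq_zero.1 h) (hw.ne_one (by norm_num))
    · exact h
  rw [eq_top_iff]
  intro v _
  have key : ∀ a : K, a ^ 3 = 1 → (v + a ^ 2 • T v + a • T (T v)) ∈ ⨆ μ, T.maxGenEigenspace μ := by
    intro a ha
    refine (le_iSup (fun μ => T.maxGenEigenspace μ) a) ?_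
    refine Module.End.eigenspace_le_maxGenEigenspace ?_
    rw [Module.End.mem_eigenspace_iff]
    have hTTT : T (T (T v)) = v := by
      have := congrArg (fun f : Module.End K V => f v) hT
      simpa [pow_succ] using this
    rw [map_add, map_add, map_smul, map_smul, hTTT, smul_add, smul_add, smul_smul, smul_smul]
    have e1 : a * a ^ 2 = 1 := by rw [← ha]; ring
    have e2 : a * a = a ^ 2 := by ring
    rw [e1, one_smul, e2]
    abel
  have h1 := key 1 (one_pow 3)
  have h2 := key w hw3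
  have h4 := key (w ^ 2) (by rw [← pow_mul, mul_comm, pow_mul, hw3, one_pow])
  have h5 := Submodule.add_mem _ (Submodule.add_mem _ h1 h2) h4
  have e : (v + (1 : K) ^ 2 • T v + (1 : K) • T (T v)) + (v + w ^ 2 • T v + w • T (T v)) +
      (v + (w ^ 2) ^ 2 • T v + w ^ 2 • T (T v)) = (3 : K) • v := by
    have e1 : (w ^ 2) ^ 2 = w := by
      have : (w ^ 2) ^ 2 = w ^ 3 * w := by ring
      rw [this, hw3, one_mul]
    rw [e1]
    have e2 : (v + (1 : K) ^ 2 • T v + (1 : K) • T (T v)) + (v + w ^ 2 • T v + w • T (T v)) +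
      (v + w • T v + w ^ 2 • T (T v)) = (3 : K) • v + (1 + w + w ^ 2) • T v + (1 + w + w ^ 2) • T (T v) := by
      module
    rw [e2, hsum, zero_smul, zero_smul, add_zero, add_zero]
  rw [e] at h5
  have h6 := Submodule.smul_mem _ (3 : K)⁻¹ h5
  rwa [smul_smul, inv_mul_cancel₀ h3, one_smul] at h6

variable {w : K} {T : ι → Module.End K V}

theorem iSup_J3 (hw : IsPrimitiveRoot w 3) (h3 : ((3 : ℕ) : K) ≠ 0) (hT : ∀ i, T i ^ 3 = 1)
    (hc : ∀ i j, Commute (T i) (T j)) : ⨆ c, J (n := 3) w T c = ⊤ := by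
  have h1 := Module.End.iSup_iInf_maxGenEigenspace_eq_top_of_iSup_maxGenEigenspace_eq_top_of_commute T
    (fun i j _ => hc i j) (fun i => iSup_single hw (by exact_mod_cast h3) (hT i))
  rw [eq_top_iff, ← h1]
  refine iSup_le fun χ => ?_
  by_cases hbot : (⨅ i, (T i).maxGenEigenspace (χ i)) = ⊥
  · rw [hbot]; exact bot_le
  obtain ⟨v, hv, hv0⟩ := Submodule.exists_mem_ne_zero_of_ne_bot hbot
  have h2 : ∀ i, T i v = χ i • v := by
    intro i
    have h3' := (Submodule.mem_iInf _).1 hv i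
    rw [maxGen_eq h3 (hT i), Module.End.mem_eigenspace_iff] at h3'
    exact h3'
  have h3' : ∀ i, χ i ^ 3 = 1 := by
    intro i
    have h4 : ∀ m : ℕ, (T i ^ m) v = χ i ^ m • v := by
      intro m
      induction m with
      | zero => simp
      | succ m ih => rw [pow_succ', Module.End.mul_apply, ih, map_smul, h2, smul_smul, pow_succ]
    have h5 := h4 3
    rw [hT i, Module.End.one_apply] at h5
    have h6 : (1 - χ i ^ 3) • v = 0 := by rw [sub_smul, one_smul, ← h5, sub_self]
    rcases smul_eq_zero.1 h6 with h | h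
    · exact (sub_eq_zero.1 h).symm
    · exact absurd h hv0
  have h4 : ∀ i, ∃ c : ZMod 3, χ i = w ^ c.val := by
    intro i
    obtain ⟨j, hj, h5⟩ := hw.eq_pow_of_pow_eq_one (h3' i)
    refine ⟨(j : ZMod 3), ?_⟩
    rw [ZMod.val_natCast, Nat.mod_eq_of_lt hj, h5]
  choose c hc' using h4
  refine le_trans ?_ (le_iSup _ c)
  rw [J]
  refine le_of_eq (iInf_congr fun i => ?_)
  rw [maxGen_eq h3 (hT i), hc' i]

theorem sum_J3 [Fintype (ι → ZMod 3)] (hw : IsPrimitiveRoot w 3) (h3 : ((3 : ℕ) : K) ≠ 0) (hT : ∀ i, T i ^ 3 = 1)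
    (hc : ∀ i j, Commute (T i) (T j)) : ∑ c, finrank K (J (n := 3) w T c) = finrank K V := by
  classical
  have h : DirectSum.IsInternal (J (n := 3) w T) :=
    (DirectSum.isInternal_submodule_iff_iSupIndep_and_iSup_eq_top _).2 ⟨indep_J hw h3 hT hc, iSup_J3 hw h3 hT hc⟩
  have e := LinearEquiv.ofBijective (DirectSum.coeLinearMap (J (n := 3) w T)) h
  rw [← e.finrank_eq, Module.finrank_directSum]

/-- the dimension of the kernel of `e - 1` -/
theorem finrank_ker [Fintype (ι → ZMod 3)] (hw : IsPrimitiveRoot w 3) (h3 : ((3 : ℕ) : K) ≠ 0)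
    (hT : ∀ i, T i ^ 3 = 1) (hc : ∀ i j, Commute (T i) (T j)) {e : Module.End K V} (he : ∀ i, Commute (T i) e)
    (wt : (ι → ZMod 3) → ZMod 3) (hwt : ∀ c, ∀ v ∈ J w T c, e v = w ^ (wt c).val • v) :
    finrank K (e.eigenspace 1) = ∑ c, if wt c = 0 then finrank K (J (n := 3) w T c) else 0 := by
  set U := e.eigenspace (1 : K) with hU
  have hmem : ∀ v, v ∈ U ↔ e v = v := fun v => by rw [hU, Module.End.mem_eigenspace_iff, one_smul]
  have hmaps : ∀ i, ∀ v ∈ U, T i v ∈ U := by
    intro i v hv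
    rw [hmem] at hv ⊢
    have := congrArg (fun f : Module.End K V => f v) (he i).eq
    simp only [Module.End.mul_apply] at this
    rw [← this, hv]
  let T' : ι → Module.End K U := fun i => (T i).restrict (hmaps i)
  have hT'v : ∀ i (v : U), ((T' i v : U) : V) = T i v := fun i v => rfl
  have hT' : ∀ i, T' i ^ 3 = 1 := by
    intro i
    refine LinearMap.ext fun v => Subtype.ext ?_
    rw [pow_three, Module.End.mul_apply, Module.End.mul_apply, hT'v, hT'v, hT'v]
    have := congrArg (fun f : Module.End K V => f v) (hT i)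
    rw [pow_three] at this
    exact this
  have hc' : ∀ i j, Commute (T' i) (T' j) := by
    intro i j
    refine LinearMap.ext fun v => Subtype.ext ?_
    rw [Module.End.mul_apply, Module.End.mul_apply, hT'v, hT'v, hT'v, hT'v]
    exact congrArg (fun f : Module.End K V => f v) (hc i j).eq
  rw [← sum_J3 hw h3 hT' hc']
  refine Finset.sum_congr rfl fun c _ => ?_
  have hJ : J w T' c = (J w T c).comap U.subtype := by
    ext v
    rw [Submodule.mem_comap, mem_J, mem_J]
    exact forall_congr' fun i => Subtype.ext_iff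
  rw [hJ]
  split_ifs with h
  · have hle : J w T c ≤ U := by
      intro v hv
      rw [hmem, hwt c v hv, h, ZMod.val_zero, pow_zero, one_smul]
    exact (Submodule.comapSubtypeEquivOfLe hle).finrank_eq
  · have hbot : (J w T c).comap U.subtype = ⊥ := by
      rw [Submodule.eq_bot_iff]
      rintro ⟨v, hvU⟩ hv
      have h1 := hwt c v hv
      rw [(hmem v).1 hvU] at h1
      have h2 : (w ^ (wt c).val - 1) • v = 0 := by rw [sub_smul, one_smul, ← h1, sub_self]
      rcases smul_eq_zero.1 h2 with h5 | h5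
      · exfalso
        apply h
        have h6 := (hw.pow_eq_one_iff_dvd _).1 (sub_eq_zero.1 h5)
        rw [← ZMod.natCast_eq_zero_iff, ZMod.natCast_zmod_val] at h6
        exact h6
      · exact Subtype.ext h5
    rw [hbot, finrank_bot]

end general


section P18

open Equiv

/-- the pull-back of a weight -/
def pull (σ : Fin 6 → Fin 6) (e : Fin 6 → ℕ) (lam : Fin 6 → ZMod 3) : Fin 6 → ZMod 3 := fun i => e i * lam (σ i)

/-- `t` is monomial with permutation `σ` and exponents `e` -/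
def Mv (t : Perm (Fin 18)) (σ : Fin 6 → Fin 6) (e : Fin 6 → ℕ) : Prop := ∀ i, t * xp i * t⁻¹ = xp (σ i) ^ e i

theorem Mv.comp {t t' : Perm (Fin 18)} {σ σ' : Fin 6 → Fin 6} {e e' : Fin 6 → ℕ} (h : Mv t σ e) (h' : Mv t' σ' e') :
    Mv (t' * t) (fun i => σ' (σ i)) (fun i => e' (σ i) * e i) := by
  intro i
  have h1 : t' * t * xp i * (t' * t)⁻¹ = t' * (t * xp i * t⁻¹) * t'⁻¹ := by group
  rw [h1, h i, ← conj_pow, h' (σ i), ← pow_mul]

theorem pull_comp (σ σ' : Fin 6 → Fin 6) (e e' : Fin 6 → ℕ) (lam : Fin 6 → ZMod 3) :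
    pull (fun i => σ' (σ i)) (fun i => e' (σ i) * e i) lam = pull σ e (pull σ' e' lam) := by
  funext i
  unfold pull
  push_cast
  ring

/-- inversion of `x i` -/
def tinv (i : Fin 6) : Perm (Fin 18) := swap ⟨3 * i + 1, by omega⟩ ⟨3 * i + 2, by omega⟩

/-- interchange of `x i` and `x j` -/
def tsw (i j : Fin 6) : Perm (Fin 18) := swap ⟨3 * i, by omega⟩ ⟨3 * j, by omega⟩ *
  swap ⟨3 * i + 1, by omega⟩ ⟨3 * j + 1, by omega⟩ * swap ⟨3 * i + 2, by omega⟩ ⟨3 * j + 2, by omega⟩

theorem mv_tinv : ∀ i, Mv (tinv i) (fun j => j) (fun j => if j = i then 2 else 1) := by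
  unfold Mv
  decide +kernel

theorem mv_tsw : ∀ i j, Mv (tsw i j) (fun k => swap i j k) (fun _ => 1) := by
  unfold Mv
  decide +kernel

theorem sign_tinv : ∀ i, Perm.sign (tinv i) = -1 := by decide +kernel

theorem sign_tsw : ∀ i j, i ≠ j → Perm.sign (tsw i j) = -1 := by decide +kernel

/-- basic odd moves -/
inductive Basic : Perm (Fin 18) → (Fin 6 → Fin 6) → (Fin 6 → ℕ) → Prop
  | inv (i : Fin 6) : Basic (tinv i) (fun j => j) (fun j => if j = i then 2 else 1)
  | sw (i j : Fin 6) (h : i ≠ j) : Basic (tsw i j) (fun k => swap i j k) (fun _ => 1)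

theorem Basic.mv {t : Perm (Fin 18)} {σ : Fin 6 → Fin 6} {e : Fin 6 → ℕ} (h : Basic t σ e) : Mv t σ e := by
  rcases h with i | ⟨i, j, h⟩
  · exact mv_tinv i
  · exact mv_tsw i j

theorem Basic.sign {t : Perm (Fin 18)} {σ : Fin 6 → Fin 6} {e : Fin 6 → ℕ} (h : Basic t σ e) : Perm.sign t = -1 := by
  rcases h with i | ⟨i, j, h⟩
  · exact sign_tinv i
  · exact sign_tsw i j h

theorem Basic.invol {t : Perm (Fin 18)} {σ : Fin 6 → Fin 6} {e : Fin 6 → ℕ} (h : Basic t σ e)
    (lam : Fin 6 → ZMod 3) : pull σ e (pull σ e lam) = lam := by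
  funext k
  unfold pull
  rcases h with i | ⟨i, j, h⟩
  · simp only []
    split_ifs
    · rw [← mul_assoc, ← Nat.cast_mul]
      have : ((2 * 2 : ℕ) : ZMod 3) = 1 := by decide
      rw [this, one_mul]
    · simp
  · simp

theorem exists_fix (lam : Fin 6 → ZMod 3) : ∃ t σ e, Basic t σ e ∧ pull σ e lam = lam := by
  have h : ∀ lam : Fin 6 → ZMod 3, (∃ i, lam i = 0) ∨ ∃ i j, i ≠ j ∧ lam i = lam j := by decide +kernel
  rcases h lam with ⟨i, hi⟩ | ⟨i, j, hij, h⟩
  · refine ⟨_, _, _, Basic.inv i, ?_⟩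
    funext k
    show ((if k = i then 2 else 1 : ℕ) : ZMod 3) * lam k = lam k
    split_ifs with hk
    · rw [hk, hi, mul_zero]
    · rw [Nat.cast_one, one_mul]
  · refine ⟨_, _, _, Basic.sw i j hij, ?_⟩
    funext k
    show ((1 : ℕ) : ZMod 3) * lam (swap i j k) = lam k
    rw [Nat.cast_one, one_mul]
    by_cases h1 : k = i
    · rw [h1, swap_apply_left, h]
    · by_cases h2 : k = j
      · rw [h2, swap_apply_right, h]
      · rw [swap_apply_of_ne_of_ne h1 h2]

variable {K V : Type*} [Field K] [AddCommGroup V] [Module K V] [FiniteDimensional K V]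

theorem E18_le : E18 ≤ P18 := by
  rw [E18, Subgroup.closure_le]
  rintro _ ⟨i, rfl⟩
  exact x_mem i

/-- one even move -/
theorem finrank_wsp_le {w : K} (ρ : ↥P18 →* Module.End K V) (hfus : Fus ρ) {t : Perm (Fin 18)} (ht : Perm.sign t = 1)
    {σ : Fin 6 → Fin 6} {e : Fin 6 → ℕ} (hm : Mv t σ e) (lam : Fin 6 → ZMod 3) (hw : w ^ 3 = 1) :
    finrank K (wsp w ρ lam) ≤ finrank K (wsp w ρ (pull σ e lam)) := by
  let a : ↥(alternatingGroup (Fin 18)) := ⟨t, Perm.mem_alternatingGroup.2 ht⟩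
  have hax : ∀ i, a * x i * a⁻¹ = x (σ i) ^ e i := fun i => Subtype.ext (hm i)
  have hQ' : ∀ q ∈ E18, a * q * a⁻¹ ∈ P18 := by
    intro q hq
    have : E18 ≤ P18.comap (MulAut.conj a).toMonoidHom := by
      rw [E18, Subgroup.closure_le]
      rintro _ ⟨i, rfl⟩
      show a * x i * a⁻¹ ∈ P18
      rw [hax]
      exact P18.pow_mem (x_mem _) _
    exact this hq
  obtain ⟨h, hh⟩ := hfus a E18 E18_le hQ'
  have hxE : ∀ i, x i ∈ E18 := fun i => Subgroup.subset_closure ⟨i, rfl⟩
  have hpw : ∀ (i : Fin 6) (v : V), v ∈ wsp w ρ lam → ∀ m : ℕ, ρ (xP (σ i) ^ m) v = (w ^ (lam (σ i)).val) ^ m • v := by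
    intro i v hv m
    induction m with
    | zero => rw [pow_zero, pow_zero, map_one, one_smul]; rfl
    | succ m ih => rw [pow_succ', map_mul, Module.End.mul_apply, ih, map_smul, hv (σ i), smul_smul, pow_succ]
  have hmap : ∀ v ∈ wsp w ρ lam, h.symm v ∈ wsp w ρ (pull σ e lam) := by
    intro v hv i
    apply h.injective
    have h1 := hh (x i) (hxE i) (h.symm v)
    have h2 : (⟨a * x i * a⁻¹, hQ' (x i) (hxE i)⟩ : ↥P18) = xP (σ i) ^ e i := Subtype.ext (hax i)
    rw [h2, h.apply_symm_apply, hpw i v hv] at h1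
    have h3 : (⟨x i, E18_le (hxE i)⟩ : ↥P18) = xP i := rfl
    rw [h3] at h1
    rw [h1, map_smul, h.apply_symm_apply]
    congr 1
    rw [← pow_mul]
    have h4 : ∀ m : ℕ, w ^ m = w ^ (m % 3) := fun m => pow_eq_pow_mod m hw
    rw [h4]
    congr 1
    unfold pull
    rw [← ZMod.val_natCast]
    congr 1
    push_cast [ZMod.natCast_zmod_val]
    ring
  let f : wsp w ρ lam →ₗ[K] wsp w ρ (pull σ e lam) :=
    (h.symm.toLinearMap.domRestrict _).codRestrict _ (fun v => hmap v v.2)
  refine LinearMap.finrank_le_finrank_of_injective (f := f) ?_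
  intro v v' hvv
  apply Subtype.ext
  exact h.symm.injective (congrArg Subtype.val hvv)

theorem finrank_wsp_basic {w : K} (ρ : ↥P18 →* Module.End K V) (hfus : Fus ρ) (hw : w ^ 3 = 1) {t : Perm (Fin 18)}
    {σ : Fin 6 → Fin 6} {e : Fin 6 → ℕ} (hb : Basic t σ e) (lam : Fin 6 → ZMod 3) :
    finrank K (wsp w ρ (pull σ e lam)) = finrank K (wsp w ρ lam) := by
  have key : ∀ mu : Fin 6 → ZMod 3, finrank K (wsp w ρ mu) ≤ finrank K (wsp w ρ (pull σ e mu)) := by
    intro mu
    obtain ⟨t', σ', e', hb', hfix⟩ := exists_fix mu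
    have h1 := finrank_wsp_le ρ hfus (t := t' * t) (by rw [Perm.sign_mul, hb.sign, hb'.sign]; decide)
      (hb.mv.comp hb'.mv) mu hw
    rwa [pull_comp, hfix] at h1
  refine le_antisymm ?_ (key lam)
  have h1 := key (pull σ e lam)
  rwa [hb.invol] at h1

/-- the multiplicity -/
noncomputable def dm (w : K) (ρ : ↥P18 →* Module.End K V) (lam : Fin 6 → ZMod 3) : ℕ := finrank K (wsp w ρ lam)

theorem dm_inv {w : K} (ρ : ↥P18 →* Module.End K V) (hfus : Fus ρ) (hw : w ^ 3 = 1) (i : Fin 6) (mu : Fin 6 → ZMod 3) :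
    dm w ρ (Function.update mu i (mu i * mu i)) = dm w ρ mu := by
  have h2 : ∀ a : ZMod 3, a * a = a ∨ a * a = 2 * a := by decide
  rcases h2 (mu i) with h | h
  · rw [h, Function.update_eq_self]
  · rw [h]
    refine Eq.trans (congrArg (dm w ρ) ?_) (finrank_wsp_basic ρ hfus hw (Basic.inv i) mu)
    funext k
    show _ = ((if k = i then 2 else 1 : ℕ) : ZMod 3) * mu k
    by_cases hk : k = i
    · subst hk
      rw [Function.update_self, if_pos rfl]
      rfl
    · rw [Function.update_of_ne hk, if_neg hk, Nat.cast_one, one_mul]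

theorem dm_sq {w : K} (ρ : ↥P18 →* Module.End K V) (hfus : Fus ρ) (hw : w ^ 3 = 1) (lam : Fin 6 → ZMod 3) :
    dm w ρ (fun i => lam i * lam i) = dm w ρ lam := by
  have key := dm_inv ρ hfus hw
  -- square the first `n` coordinates
  let g : ℕ → Fin 6 → ZMod 3 := fun n i => if (i : ℕ) < n then lam i * lam i else lam i
  have step : ∀ n : Fin 6, dm w ρ (g (n + 1)) = dm w ρ (g n) := by
    intro n
    rw [← key n (g n)]
    congr 1
    funext i
    by_cases hi : i = n
    · subst hi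
      rw [Function.update_self]
      show (if (i : ℕ) < i + 1 then lam i * lam i else lam i) = _
      rw [if_pos (Nat.lt_succ_self _)]
      show _ = (if (i : ℕ) < i then lam i * lam i else lam i) * (if (i : ℕ) < i then lam i * lam i else lam i)
      rw [if_neg (lt_irrefl _)]
    · rw [Function.update_of_ne hi]
      show (if (i : ℕ) < n + 1 then lam i * lam i else lam i) = (if (i : ℕ) < n then lam i * lam i else lam i)
      have h1 : (i : ℕ) ≠ n := fun e => hi (Fin.ext e)
      by_cases h2 : (i : ℕ) < n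
      · rw [if_pos h2, if_pos (by omega)]
      · rw [if_neg h2, if_neg (by omega)]
  have h6 : (fun i => lam i * lam i) = g 6 := by
    funext i
    show _ = if (i : ℕ) < 6 then _ else _
    rw [if_pos i.2]
  have h0 : lam = g 0 := by
    funext i
    show _ = if (i : ℕ) < 0 then _ else _
    rw [if_neg (Nat.not_lt_zero _)]
  rw [h6]
  conv_rhs => rw [h0]
  exact (step 5).trans ((step 4).trans ((step 3).trans ((step 2).trans ((step 1).trans (step 0)))))

theorem dm_perm {w : K} (ρ : ↥P18 →* Module.End K V) (hfus : Fus ρ) (hw : w ^ 3 = 1) (τ : Perm (Fin 6)) :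
    ∀ lam : Fin 6 → ZMod 3, dm w ρ (fun i => lam (τ i)) = dm w ρ lam := by
  induction τ using Perm.swap_induction_on with
  | one => intro lam; rfl
  | swap_mul f i j hij ih =>
    intro lam
    have h1 := finrank_wsp_basic ρ hfus hw (Basic.sw i j hij) lam
    have h2 := ih (pull (fun k => swap i j k) (fun _ => 1) lam)
    refine Eq.trans (congrArg (dm w ρ) ?_) (h2.trans h1)
    funext k
    show _ = ((1 : ℕ) : ZMod 3) * lam (swap i j (f k))
    rw [Nat.cast_one, one_mul]
    rfl

/-- **the multiplicities depend only on the number of non-zero coordinates** -/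
theorem dm_eq {w : K} (ρ : ↥P18 →* Module.End K V) (hfus : Fus ρ) (hw : w ^ 3 = 1)
    {lam mu : Fin 6 → ZMod 3} (h : nz lam = nz mu) : dm w ρ lam = dm w ρ mu := by
  classical
  have e : {i // lam i ≠ 0} ≃ {i // mu i ≠ 0} := by
    apply Fintype.equivOfCardEq
    rw [Fintype.card_subtype, Fintype.card_subtype]
    exact h
  rw [← dm_sq ρ hfus hw lam, ← dm_perm ρ hfus hw e.extendSubtype mu, ← dm_sq ρ hfus hw (fun i => mu (e.extendSubtype i))]
  congr 1
  funext i
  have h3 : ∀ a b : ZMod 3, a ≠ 0 → b ≠ 0 → a * a = b * b := by decide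
  by_cases hi : lam i = 0
  · have h1 : mu (e.extendSubtype i) = 0 := by
      by_contra h2
      exact (e.extendSubtype_not_mem i (by simpa using hi)) h2
    rw [hi, h1]
  · exact h3 _ _ hi (e.extendSubtype_mem i hi)

/-- standard weights -/
def stdw (k : Fin 7) : Fin 6 → ZMod 3 := fun i => if (i : ℕ) < k then 1 else 0

theorem nz_stdw : ∀ k : Fin 7, nz (stdw k) = k := by decide +kernel

theorem nz_lt (lam : Fin 6 → ZMod 3) : nz lam < 7 :=
  Nat.lt_succ_of_le ((Finset.card_le_univ _).trans_eq (Fintype.card_fin 6))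

/-- counting -/
theorem sum_dm {w : K} (ρ : ↥P18 →* Module.End K V) (hfus : Fus ρ) (hw : w ^ 3 = 1) (p : (Fin 6 → ZMod 3) → Prop)
    [DecidablePred p] : ∑ c : Fin 6 → ZMod 3, (if p c then dm w ρ c else 0) =
      ∑ k : Fin 7, (Finset.univ.filter fun c : Fin 6 → ZMod 3 => p c ∧ nz c = k).card * dm w ρ (stdw k) := by
  classical
  have h1 : ∀ c : Fin 6 → ZMod 3, (if p c then dm w ρ c else 0) =
      ∑ k : Fin 7, if (p c ∧ nz c = k) then dm w ρ (stdw k) else 0 := by
    intro c
    rw [Finset.sum_eq_single (⟨nz c, nz_lt c⟩ : Fin 7)]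
    · by_cases hp : p c
      · rw [if_pos hp, if_pos ⟨hp, rfl⟩]
        exact dm_eq ρ hfus hw (nz_stdw ⟨nz c, nz_lt c⟩).symm
      · rw [if_neg hp, if_neg (fun h => hp h.1)]
    · intro k _ hk
      rw [if_neg]
      rintro ⟨-, h⟩
      exact hk (Fin.ext h.symm)
    · intro h; exact absurd (Finset.mem_univ _) h
  simp only [h1]
  rw [Finset.sum_comm]
  refine Finset.sum_congr rfl fun k _ => ?_
  rw [← Finset.sum_filter, Finset.sum_const, smul_eq_mul]

end P18

end Cfsg.Agent.H189.T3a
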