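import Cfsg.Agent.H190.E6.Joint

/-!
# Integer matrices of size 8: no two "commuting" Heisenberg triples for the prime 3

`two_heis`: if `h g = A g h`, `h' g' = B g' h'`, with `A, B` commuting with everything and the two pairs commuting, all of
order dividing 3, then `A = 1` or `B = 1`.
-/

set_option autoImplicit false

namespace Cfsg.Agent.H189.T3a

open Cfsg.Agent.H190.E6 Module Matrix

theorem comb9a : ∀ c0 c1 : ZMod 3,
    (({![c0, c1, 0, 0], ![c0, c1, 0, 1], ![c0, c1, 0, 2], ![c0, c1, 1, 0], ![c0, c1, 1, 1], ![c0, c1, 1, 2],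
      ![c0, c1, 2, 0], ![c0, c1, 2, 1], ![c0, c1, 2, 2]} : Finset (Fin 4 → ZMod 3))).card = 9 := by decide +kernel

theorem comb9b : ∀ c0 c3 d1 d2 : ZMod 3, c0 ≠ 0 → d1 ≠ 0 →
    (({![c0, 0, 0, c3], ![c0, 0, 1, c3], ![c0, 0, 2, c3], ![-c0, 0, 0, -c3], ![-c0, 0, 1, -c3], ![-c0, 0, 2, -c3],
      ![0, d1, d2, 0], ![0, d1, d2, 1], ![0, d1, d2, 2]} : Finset (Fin 4 → ZMod 3))).card = 9 := by decide +kernel

theorem eta4 (c : Fin 4 → ZMod 3) : c = ![c 0, c 1, c 2, c 3] := by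
  funext i
  fin_cases i <;> rfl

theorem z3 : ∀ a b t : ZMod 3, a ≠ 0 → t = b ∨ t = b - a ∨ t = b - a - a := by decide +kernel

theorem comb {Z : Finset (Fin 4 → ZMod 3)} (hcard : Z.card ≤ 8)
    (h1 : ∀ a b c d, ![a, b, c, d] ∈ Z → ![a, b, c - a, d] ∈ Z)
    (h2 : ∀ a b c d, ![a, b, c, d] ∈ Z → ![a, b, c, d - b] ∈ Z)
    (h3 : ∀ a b c d, ![a, b, c, d] ∈ Z → ![-a, -b, -c, -d] ∈ Z)
    (ha : ∃ c ∈ Z, c 0 ≠ 0) (hb : ∃ c ∈ Z, c 1 ≠ 0) : False := by
  have e1 : ∀ a b c d, a ≠ 0 → ![a, b, c, d] ∈ Z → ∀ t, ![a, b, t, d] ∈ Z := by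
    intro a b c d ha0 h t
    rcases z3 a c t ha0 with rfl | rfl | rfl
    · exact h
    · exact h1 _ _ _ _ h
    · exact h1 _ _ _ _ (h1 _ _ _ _ h)
  have e2 : ∀ a b c d, b ≠ 0 → ![a, b, c, d] ∈ Z → ∀ t, ![a, b, c, t] ∈ Z := by
    intro a b c d hb0 h t
    rcases z3 b d t hb0 with rfl | rfl | rfl
    · exact h
    · exact h2 _ _ _ _ h
    · exact h2 _ _ _ _ (h2 _ _ _ _ h)
  have both : ∀ a b c d, ![a, b, c, d] ∈ Z → a = 0 ∨ b = 0 := by
    intro a b c d h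
    by_contra hn
    push Not at hn
    have hall : ∀ s t, ![a, b, s, t] ∈ Z := fun s t => e2 _ _ _ _ hn.2 (e1 _ _ _ _ hn.1 h s) t
    have hsub : ({![a, b, 0, 0], ![a, b, 0, 1], ![a, b, 0, 2], ![a, b, 1, 0], ![a, b, 1, 1], ![a, b, 1, 2],
        ![a, b, 2, 0], ![a, b, 2, 1], ![a, b, 2, 2]} : Finset (Fin 4 → ZMod 3)) ⊆ Z := by
      intro x hx
      simp only [Finset.mem_insert, Finset.mem_singleton] at hx
      rcases hx with rfl | rfl | rfl | rfl | rfl | rfl | rfl | rfl | rfl <;> exact hall _ _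
    have := Finset.card_le_card hsub
    rw [comb9a] at this
    omega
  obtain ⟨c, hc, hc0⟩ := ha
  obtain ⟨d, hd, hd1⟩ := hb
  rw [eta4 c] at hc
  rw [eta4 d] at hd
  have hc1 := (both _ _ _ _ hc).resolve_left hc0
  have hd0 := (both _ _ _ _ hd).resolve_right hd1
  rw [hc1] at hc
  rw [hd0] at hd
  have hc' := h3 _ _ _ _ hc
  rw [neg_zero] at hc'
  have f1 := e1 _ _ _ _ hc0 hc
  have f2 := e1 _ _ _ _ (neg_ne_zero.2 hc0) hc'
  have f3 := e2 _ _ _ _ hd1 hd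
  have hsub : ({![c 0, 0, 0, c 3], ![c 0, 0, 1, c 3], ![c 0, 0, 2, c 3], ![-c 0, 0, 0, -c 3], ![-c 0, 0, 1, -c 3],
      ![-c 0, 0, 2, -c 3], ![0, d 1, d 2, 0], ![0, d 1, d 2, 1], ![0, d 1, d 2, 2]} : Finset (Fin 4 → ZMod 3)) ⊆ Z := by
    intro x hx
    simp only [Finset.mem_insert, Finset.mem_singleton] at hx
    rcases hx with rfl | rfl | rfl | rfl | rfl | rfl | rfl | rfl | rfl
    · exact f1 _
    · exact f1 _
    · exact f1 _
    · exact f2 _
    · exact f2 _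
    · exact f2 _
    · exact f3 _
    · exact f3 _
    · exact f3 _
  have := Finset.card_le_card hsub
  rw [comb9b _ _ _ _ hc0 hd1] at this
  omega

/-- complexification of integer matrices -/
noncomputable def cm : Matrix (Fin 8) (Fin 8) ℤ →+* Matrix (Fin 8) (Fin 8) ℂ := (Int.castRingHom ℂ).mapMatrix

theorem cm_injective : Function.Injective cm := by
  intro A B h
  ext i j
  exact Int.cast_injective (α := ℂ) (congrFun (congrFun h i) j)

theorem cm_star (A : Matrix (Fin 8) (Fin 8) ℤ) (v : Fin 8 → ℂ) : cm A *ᵥ star v = star (cm A *ᵥ v) := by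
  funext i
  simp only [mulVec, dotProduct, Pi.star_apply, star_sum, star_mul']
  refine Finset.sum_congr rfl fun j _ => ?_
  congr 1
  show ((A i j : ℤ) : ℂ) = star ((A i j : ℤ) : ℂ)
  simp

variable {A g h B g' h' : Matrix (Fin 8) (Fin 8) ℤ}

theorem two_heis (hA3 : A ^ 3 = 1) (hB3 : B ^ 3 = 1) (hg3 : g ^ 3 = 1) (hg3' : g' ^ 3 = 1)
    (hh : ∃ x, x * h = 1) (hh' : ∃ x, x * h' = 1) (hAB : A * B = B * A) (hAg : A * g = g * A) (hAg' : A * g' = g' * A)
    (hBg : B * g = g * B) (hBg' : B * g' = g' * B) (hgg' : g * g' = g' * g)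
    (hAh : A * h = h * A) (hBh : B * h = h * B) (hg'h : g' * h = h * g')
    (hAh' : A * h' = h' * A) (hBh' : B * h' = h' * B) (hgh' : g * h' = h' * g)
    (hrel : h * g = A * g * h) (hrel' : h' * g' = B * g' * h') : A = 1 ∨ B = 1 := by
  classical
  by_contra hn
  push Not at hn
  obtain ⟨ω, hω⟩ : ∃ ω : ℂ, IsPrimitiveRoot ω 3 := ⟨_, Complex.isPrimitiveRoot_exp 3 (by norm_num)⟩
  have hω0 : ω ≠ 0 := hω.ne_zero (by norm_num)
  let T : Fin 4 → Module.End ℂ (Fin 8 → ℂ) := ![(cm A).mulVecLin, (cm B).mulVecLin, (cm g).mulVecLin, (cm g').mulVecLin]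
  have hpow : ∀ M : Matrix (Fin 8) (Fin 8) ℤ, M ^ 3 = 1 → ((cm M).mulVecLin : Module.End ℂ (Fin 8 → ℂ)) ^ 3 = 1 := by
    intro M hM
    rw [pow_three, Module.End.mul_eq_comp, Module.End.mul_eq_comp, ← mulVecLin_mul, ← mulVecLin_mul, ← map_mul, ← map_mul,
      ← pow_three, hM, map_one, mulVecLin_one]
    rfl
  have hcom : ∀ M N : Matrix (Fin 8) (Fin 8) ℤ, M * N = N * M → Commute ((cm M).mulVecLin : Module.End ℂ (Fin 8 → ℂ))
      (cm N).mulVecLin := by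
    intro M N h
    show _ * _ = _ * _
    rw [Module.End.mul_eq_comp, Module.End.mul_eq_comp, ← mulVecLin_mul, ← mulVecLin_mul, ← map_mul, ← map_mul, h]
  have hT : ∀ i, T i ^ 3 = 1 := by
    intro i
    fin_cases i
    · exact hpow A hA3
    · exact hpow B hB3
    · exact hpow g hg3
    · exact hpow g' hg3'
  have hc : ∀ i j, Commute (T i) (T j) := by
    have key : ∀ i j : Fin 4, ![A, B, g, g'] i * ![A, B, g, g'] j = ![A, B, g, g'] j * ![A, B, g, g'] i := by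
      intro i j
      fin_cases i <;> fin_cases j <;> simp <;> first | assumption | (symm; assumption)
    have hTi : ∀ i, T i = (cm (![A, B, g, g'] i)).mulVecLin := by
      intro i
      fin_cases i <;> rfl
    intro i j
    rw [hTi, hTi]
    exact hcom _ _ (key i j)
  have hn3 : ((3 : ℕ) : ℂ) ≠ 0 := by norm_num
  have hind := indep_J (n := 3) hω hn3 hT hc
  have hsup := iSup_J (n := 3) hω hn3 hT hc
  let Z : Finset (Fin 4 → ZMod 3) := Finset.univ.filter fun c => J ω T c ≠ ⊥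
  have hZ : Z.card ≤ 8 := by
    have h1 := hind.subtype_ne_bot_le_finrank
    rw [Module.finrank_fin_fun, Fintype.card_subtype] at h1
    exact h1
  have hmem : ∀ c, c ∈ Z ↔ ∃ v, v ≠ 0 ∧ v ∈ J ω T c := by
    intro c
    rw [Finset.mem_filter, Submodule.ne_bot_iff]
    constructor
    · rintro ⟨-, v, hv, hv0⟩; exact ⟨v, hv0, hv⟩
    · rintro ⟨v, hv0, hv⟩; exact ⟨Finset.mem_univ _, v, hv, hv0⟩
  have hJ : ∀ (a b c d : ZMod 3) (v : Fin 8 → ℂ), v ∈ J ω T ![a, b, c, d] ↔ cm A *ᵥ v = ω ^ a.val • v ∧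
      cm B *ᵥ v = ω ^ b.val • v ∧ cm g *ᵥ v = ω ^ c.val • v ∧ cm g' *ᵥ v = ω ^ d.val • v := by
    intro a b c d v
    rw [mem_J]
    constructor
    · intro H; exact ⟨H 0, H 1, H 2, H 3⟩
    · rintro ⟨H0, H1, H2, H3⟩ i
      fin_cases i
      · exact H0
      · exact H1
      · exact H2
      · exact H3
  have hadd : ∀ a b : ZMod 3, ω ^ (a + b).val = ω ^ a.val * ω ^ b.val := by
    intro a b
    rw [ZMod.val_add, ← pow_add, ← pow_eq_pow_mod _ hω.pow_eq_one]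
  have hωn : ∀ a : ZMod 3, ω ^ a.val ≠ 0 := fun a => pow_ne_zero _ hω0
  -- the key computation
  have step : ∀ (M N H : Matrix (Fin 8) (Fin 8) ℤ) (a c : ZMod 3) (v : Fin 8 → ℂ), M * H = H * M → M * N = N * M →
      H * N = M * N * H → cm M *ᵥ v = ω ^ a.val • v → cm N *ᵥ v = ω ^ c.val • v →
      cm N *ᵥ (cm H *ᵥ v) = ω ^ (c - a).val • (cm H *ᵥ v) := by
    intro M N H a c v hMH hMN hr hM hN
    have e1 : cm (M * N * H) *ᵥ v = ω ^ c.val • (cm H *ᵥ v) := by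
      rw [← hr, map_mul, ← mulVec_mulVec, hN, mulVec_smul]
    have e2 : cm (M * N * H) *ᵥ v = ω ^ a.val • (cm N *ᵥ (cm H *ᵥ v)) := by
      rw [hMN, Matrix.mul_assoc, hMH, ← Matrix.mul_assoc, map_mul, map_mul, ← mulVec_mulVec, hM, mulVec_smul,
        ← mulVec_mulVec]
    have e3 : ω ^ a.val • (cm N *ᵥ (cm H *ᵥ v)) = ω ^ a.val • (ω ^ (c - a).val • (cm H *ᵥ v)) := by
      rw [← e2, e1, smul_smul, ← hadd, add_sub_cancel]
    exact smul_right_injective _ (hωn a) e3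
  have comm : ∀ (M H : Matrix (Fin 8) (Fin 8) ℤ) (a : ZMod 3) (v : Fin 8 → ℂ), M * H = H * M →
      cm M *ᵥ v = ω ^ a.val • v → cm M *ᵥ (cm H *ᵥ v) = ω ^ a.val • (cm H *ᵥ v) := by
    intro M H a v hMH hM
    rw [mulVec_mulVec, ← map_mul, hMH, map_mul, ← mulVec_mulVec, hM, mulVec_smul]
  have nz : ∀ (H : Matrix (Fin 8) (Fin 8) ℤ) (v : Fin 8 → ℂ), (∃ x, x * H = 1) → v ≠ 0 → cm H *ᵥ v ≠ 0 := by
    rintro H v ⟨x, hx⟩ hv h0
    apply hv
    have := congrArg (fun w => cm x *ᵥ w) h0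
    simp only [mulVec_mulVec, mulVec_zero] at this
    rwa [← map_mul, hx, map_one, one_mulVec] at this
  have key1 : ∀ a b c d, ![a, b, c, d] ∈ Z → ![a, b, c - a, d] ∈ Z := by
    intro a b c d hz
    obtain ⟨v, hv0, hv⟩ := (hmem _).1 hz
    obtain ⟨k0, k1, k2, k3⟩ := (hJ _ _ _ _ _).1 hv
    exact (hmem _).2 ⟨cm h *ᵥ v, nz h v hh hv0, (hJ _ _ _ _ _).2
      ⟨comm _ _ _ _ hAh k0, comm _ _ _ _ hBh k1, step A g h a c v hAh hAg hrel k0 k2, comm _ _ _ _ hg'h k3⟩⟩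
  have key2 : ∀ a b c d, ![a, b, c, d] ∈ Z → ![a, b, c, d - b] ∈ Z := by
    intro a b c d hz
    obtain ⟨v, hv0, hv⟩ := (hmem _).1 hz
    obtain ⟨k0, k1, k2, k3⟩ := (hJ _ _ _ _ _).1 hv
    exact (hmem _).2 ⟨cm h' *ᵥ v, nz h' v hh' hv0, (hJ _ _ _ _ _).2
      ⟨comm _ _ _ _ hAh' k0, comm _ _ _ _ hBh' k1, comm _ _ _ _ hgh' k2, step B g' h' b d v hBh' hBg' hrel' k1 k3⟩⟩
  have hstar : ∀ a : ZMod 3, star (ω ^ a.val) = ω ^ (-a).val := by
    intro a
    have h1 : ω ^ (-a).val * ω ^ a.val = 1 := by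
      rw [← hadd, neg_add_cancel, ZMod.val_zero, pow_zero]
    have h2 : star (ω ^ a.val) * ω ^ a.val = 1 := by
      have hnorm : ‖ω ^ a.val‖ = 1 := by
        rw [norm_pow, Complex.norm_eq_one_of_pow_eq_one hω.pow_eq_one (by norm_num), one_pow]
      rw [Complex.star_def, ← Complex.normSq_eq_conj_mul_self, Complex.normSq_eq_norm_sq, hnorm]
      norm_num
    exact mul_right_cancel₀ (hωn a) (h2.trans h1.symm)
  have key3 : ∀ a b c d, ![a, b, c, d] ∈ Z → ![-a, -b, -c, -d] ∈ Z := by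
    intro a b c d hz
    obtain ⟨v, hv0, hv⟩ := (hmem _).1 hz
    obtain ⟨k0, k1, k2, k3⟩ := (hJ _ _ _ _ _).1 hv
    have aux : ∀ (M : Matrix (Fin 8) (Fin 8) ℤ) (a : ZMod 3), cm M *ᵥ v = ω ^ a.val • v →
        cm M *ᵥ star v = ω ^ (-a).val • star v := by
      intro M a hM
      rw [cm_star, hM, star_smul, hstar]
    exact (hmem _).2 ⟨star v, fun h0 => hv0 (by rw [← star_star v, h0, star_zero]), (hJ _ _ _ _ _).2
      ⟨aux _ _ k0, aux _ _ k1, aux _ _ k2, aux _ _ k3⟩⟩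
  have ex : ∀ i : Fin 4, (∀ c ∈ Z, c i = 0) → T i = 1 := by
    intro i hi
    have h1 : ∀ c : Fin 4 → ZMod 3, J ω T c ≤ (T i).eigenspace 1 := by
      intro c v hv
      rw [Module.End.mem_eigenspace_iff, one_smul]
      by_cases hv0 : v = 0
      · rw [hv0, map_zero]
      · have h2 := hi c ((hmem c).2 ⟨v, hv0, hv⟩)
        have h3 := mem_J.1 hv i
        rwa [h2, ZMod.val_zero, pow_zero, one_smul] at h3
    have h2 := iSup_le h1
    rw [hsup, top_le_iff] at h2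
    refine LinearMap.ext fun v => ?_
    have h3 : v ∈ (T i).eigenspace 1 := by rw [h2]; trivial
    rwa [Module.End.mem_eigenspace_iff, one_smul] at h3
  have one_of : ∀ M : Matrix (Fin 8) (Fin 8) ℤ, ((cm M).mulVecLin : Module.End ℂ (Fin 8 → ℂ)) = 1 → M = 1 := by
    intro M hM
    apply cm_injective
    rw [map_one]
    ext i j
    have := congrFun (congrArg (fun f : Module.End ℂ (Fin 8 → ℂ) => f (Pi.single j 1)) hM) i
    simp only [mulVecLin_apply, mulVec_single_one, Module.End.one_apply] at this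
    rw [Matrix.one_apply, ← Pi.single_apply j (1 : ℂ) i]
    exact this
  have exa : ∃ c ∈ Z, c 0 ≠ 0 := by
    by_contra hall
    push Not at hall
    exact hn.1 (one_of A (ex 0 hall))
  have exb : ∃ c ∈ Z, c 1 ≠ 0 := by
    by_contra hall
    push Not at hall
    exact hn.2 (one_of B (ex 1 hall))
  exact comb hZ key1 key2 key3 exa exb

end Cfsg.Agent.H189.T3a
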