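import Mathlib
import Cfsg.Agent.H164.TRowPSp

/-!
# Symplectic groups: a torus element and a transvection with small centralizer (helper189)

`te u = diag(u^i ; u^{-i})`, `i = 0, …, m-1`; `v = transv e₀ 1`.
-/

set_option autoImplicit false

namespace Cfsg.Agent.H189.XSp

open Cfsg Cfsg.Agent.ClassicalGeometry.SympAutSemi Cfsg.Agent.ClassicalGeometry.SympGamma
  Cfsg.Agent.ClassicalGeometry.SympBasic Cfsg.Agent.H164.TRowPSp
open scoped Matrix

variable {F : Type*} [Field F] {m : ℕ}

/-- exponents -/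
def kz : Fin m ⊕ Fin m → ℤ := Sum.elim (fun i => ((i : ℕ) : ℤ)) (fun i => -((i : ℕ) : ℤ))

/-- diagonal matrix with entries `w (inl i)`, `(w i)⁻¹` -/
def dg (w : Fin m → Fˣ) : Matrix.symplecticGroup (Fin m) F :=
  ⟨Matrix.diagonal (Sum.elim (fun i => ((w i : Fˣ) : F)) (fun i => (((w i)⁻¹ : Fˣ) : F))), by
    rw [mem_symplecticGroup_iff]
    intro x y
    rw [sympForm_eq_sum, sympForm_eq_sum]
    refine Finset.sum_congr rfl fun i _ => ?_
    rw [Matrix.mulVec_diagonal, Matrix.mulVec_diagonal, Matrix.mulVec_diagonal, Matrix.mulVec_diagonal]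
    simp only [Sum.elim_inl, Sum.elim_inr]
    have h : ((w i : Fˣ) : F) * (((w i)⁻¹ : Fˣ) : F) = 1 := Units.mul_inv _
    linear_combination (x (Sum.inr i) * y (Sum.inl i) - x (Sum.inl i) * y (Sum.inr i)) * h⟩

theorem rho_dg (w : Fin m → Fˣ) (x : Fin m ⊕ Fin m → F) (j : Fin m ⊕ Fin m) :
    rho m F (dg w) x j = Sum.elim (fun i => ((w i : Fˣ) : F)) (fun i => (((w i)⁻¹ : Fˣ) : F)) j * x j := by
  rw [rho_apply]
  exact Matrix.mulVec_diagonal _ _ _

/-- the torus -/
def te (m : ℕ) (F : Type*) [Field F] : Fˣ →* Matrix.symplecticGroup (Fin m) F where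
  toFun u := dg fun i => u ^ (i : ℕ)
  map_one' := by
    apply rho_injective
    ext x j
    rw [rho_dg, map_one, Equiv.Perm.one_apply]
    rcases j with j | j <;> simp
  map_mul' u v := by
    apply rho_injective
    ext x j
    rw [map_mul, Equiv.Perm.mul_apply, rho_dg, rho_dg, rho_dg]
    rcases j with j | j
    · simp only [Sum.elim_inl, mul_pow, Units.val_mul]; ring
    · simp only [Sum.elim_inr, mul_pow, mul_inv, Units.val_mul]; ring

theorem rho_te (u : Fˣ) (x : Fin m ⊕ Fin m → F) (j : Fin m ⊕ Fin m) :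
    rho m F (te m F u) x j = ((u ^ kz j : Fˣ) : F) * x j := by
  rw [show te m F u = dg fun i => u ^ (i : ℕ) from rfl, rho_dg]
  rcases j with j | j
  · simp [kz]
  · simp [kz]

theorem conj_te (τ : F ≃+* F) (u : Fˣ) :
    conjHom m F (H254.PSP.frobSS m τ) (te m F u) = te m F (Units.map (τ : F →* F) u) := by
  apply rho_injective
  rw [rho_conjHom]
  ext x j
  rw [Equiv.Perm.mul_apply, Equiv.Perm.mul_apply, rho_te]
  show τ (rho m F (te m F u) ((frobPerm m τ)⁻¹ x) j) = _
  rw [rho_te, map_mul]
  have h1 : τ ((u ^ kz j : Fˣ) : F) = (((Units.map (τ : F →* F) u) ^ kz j : Fˣ) : F) := by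
    rw [← map_zpow]; rfl
  rw [h1]
  congr 1
  exact congrFun (perm_apply_inv_self (frobPerm m τ) x) j

/-- the block pattern -/
def Bd (g : Matrix.symplecticGroup (Fin m) F) : Prop :=
  ∀ i j, (g : Matrix (Fin m ⊕ Fin m) (Fin m ⊕ Fin m) F) i j ≠ 0 → kz i = kz j

theorem comm_of_bd {g : Matrix.symplecticGroup (Fin m) F} (hg : Bd g) {w : Fin m → Fˣ}
    (hw : ∀ i : Fin m, (i : ℕ) = 0 → w i = 1) : Commute g (dg w) := by
  apply Subtype.ext
  show (g : Matrix (Fin m ⊕ Fin m) (Fin m ⊕ Fin m) F) * Matrix.diagonal _ = Matrix.diagonal _ * _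
  ext i j
  rw [Matrix.mul_diagonal, Matrix.diagonal_mul]
  by_cases h : (g : Matrix (Fin m ⊕ Fin m) (Fin m ⊕ Fin m) F) i j = 0
  · rw [h, zero_mul, mul_zero]
  · have h1 := hg i j h
    rw [mul_comm]
    congr 1
    rcases i with i | i <;> rcases j with j | j
    · have : i = j := by
        apply Fin.ext
        simpa [kz] using h1
      rw [this]
    · simp only [kz, Sum.elim_inl, Sum.elim_inr] at h1
      simp only [Sum.elim_inl, Sum.elim_inr]
      rw [hw i (by omega), hw j (by omega), inv_one]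
    · simp only [kz, Sum.elim_inl, Sum.elim_inr] at h1
      simp only [Sum.elim_inl, Sum.elim_inr]
      rw [hw i (by omega), hw j (by omega), inv_one]
    · have : i = j := by
        apply Fin.ext
        simpa [kz] using h1
      rw [this]

theorem zpow_eq_one_iff {u : Fˣ} {N : ℕ} (hu : N < orderOf u) {k : ℤ} (hk : k.natAbs ≤ N) : u ^ k = 1 → k = 0 := by
  intro h
  have h1 : (orderOf u : ℤ) ∣ k := orderOf_dvd_iff_zpow_eq_one.2 h
  by_contra h0
  have h2 := Int.natAbs_dvd_natAbs.2 h1
  rw [Int.natAbs_natCast] at h2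
  have h3 := Nat.le_of_dvd (Int.natAbs_pos.2 h0) h2
  omega

theorem natAbs_kz (j : Fin m ⊕ Fin m) : (kz j).natAbs ≤ m - 1 := by
  rcases j with j | j
  · have := j.2; simp only [kz, Sum.elim_inl]; omega
  · have := j.2; simp only [kz, Sum.elim_inr]; omega

theorem bd_of_comm {g : Matrix.symplecticGroup (Fin m) F} {u : Fˣ} (hu : 2 * (m - 1) < orderOf u)
    (h : Commute g (te m F u)) : Bd g := by
  intro i j hij
  have h1 := congrArg (fun A : Matrix.symplecticGroup (Fin m) F =>
    rho m F A (Pi.single j 1) i) h.eq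
  simp only [map_mul, Equiv.Perm.mul_apply] at h1
  rw [rho_te] at h1
  have h2 : rho m F (te m F u) (Pi.single j 1) = ((u ^ kz j : Fˣ) : F) • (Pi.single j 1 : Fin m ⊕ Fin m → F) := by
    funext l
    rw [rho_te, Pi.smul_apply, smul_eq_mul]
    by_cases hl : l = j
    · rw [hl]
    · rw [Pi.single_eq_of_ne hl, mul_zero, mul_zero]
  rw [h2, (isSemi_rho g).2.1] at h1
  have h3 : rho m F g (Pi.single j 1) i = (g : Matrix (Fin m ⊕ Fin m) (Fin m ⊕ Fin m) F) i j := by
    rw [rho_apply, Matrix.mulVec_single_one]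
    rfl
  rw [Pi.smul_apply, smul_eq_mul] at h1
  rw [h3] at h1
  have h4 : ((u ^ kz j : Fˣ) : F) = ((u ^ kz i : Fˣ) : F) := mul_right_cancel₀ hij h1
  have h5 : u ^ (kz i - kz j) = 1 := by
    rw [zpow_sub, ← Units.ext h4, mul_inv_cancel]
  have h6 := zpow_eq_one_iff hu (k := kz i - kz j) (by
    have := natAbs_kz i
    have := natAbs_kz j
    omega) h5
  omega

/-! ### The transvection -/

section transvection

variable {i0 i1 : Fin m}

theorem rho_te_single (h0 : (i0 : ℕ) = 0) (u : Fˣ) :
    rho m F (te m F u) (Pi.single (Sum.inl i0) 1) = Pi.single (Sum.inl i0) 1 := by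
  funext l
  rw [rho_te]
  by_cases hl : l = Sum.inl i0
  · rw [hl, show kz (Sum.inl i0) = 0 by simp [kz, h0], zpow_zero, Units.val_one, one_mul]
  · rw [Pi.single_eq_of_ne hl, mul_zero]

/-- a vector fixed up to `λ`, `λ² = 1` -/
theorem comm_transv {g : Matrix.symplecticGroup (Fin m) F} {e : Fin m ⊕ Fin m → F} {l : F} (hl : l * l = 1)
    (hg : rho m F g e = l • e) (c s : F) : Commute g (transv (c • e) s) := by
  apply rho_injective
  rw [map_mul, map_mul]
  ext1 x
  rw [Equiv.Perm.mul_apply, Equiv.Perm.mul_apply, rho_transv, rho_transv, (isSemi_rho g).1, (isSemi_rho g).2.1,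
    (isSemi_rho g).2.1, hg]
  have h1 : sympForm m F (rho m F g x) e = l * sympForm m F x e := by
    have h2 := sympForm_rho g x e
    rw [hg, sympForm_smul_right] at h2
    rw [← h2, ← mul_assoc, hl, one_mul]
  rw [sympForm_smul_right, sympForm_smul_right, h1]
  simp only [RingEquiv.refl_apply, smul_smul]
  congr 2
  ring

theorem eig_of_comm {g : Matrix.symplecticGroup (Fin m) F}
    (h : Commute g (transv (Pi.single (Sum.inl i0) 1) (1 : F))) :
    ∃ l : F, l * l = 1 ∧ rho m F g (Pi.single (Sum.inl i0) 1) = l • (Pi.single (Sum.inl i0) 1) ∧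
      rho m F g (Pi.single (Sum.inr i0) 1) (Sum.inr i0) = l := by
  have h1 := congrArg (fun A => rho m F A (Pi.single (Sum.inr i0) 1)) h.eq
  simp only [map_mul, Equiv.Perm.mul_apply] at h1
  rw [rho_transv, rho_transv, (isSemi_rho g).1, (isSemi_rho g).2.1, sympForm_single_inl_right,
    sympForm_single_inl_right] at h1
  have h2 : rho m F g (Pi.single (Sum.inl i0) 1) =
      (rho m F g (Pi.single (Sum.inr i0) 1) (Sum.inr i0)) • (Pi.single (Sum.inl i0) 1 : Fin m ⊕ Fin m → F) := by
    have h3 := add_left_cancel h1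
    simpa using h3
  refine ⟨_, ?_, h2, rfl⟩
  have h4 := sympForm_rho g (Pi.single (Sum.inl i0) 1) (Pi.single (Sum.inr i0) 1)
  rw [h2, sympForm_smul_left, sympForm_single_inl_left, sympForm_single_inl_left, Pi.single_eq_same] at h4
  linear_combination -h4

theorem comm_te_transv (h0 : (i0 : ℕ) = 0) (u : Fˣ) :
    Commute (te m F u) (transv (Pi.single (Sum.inl i0) 1) (1 : F)) := by
  have h := comm_transv (g := te m F u) (e := Pi.single (Sum.inl i0) 1) (l := 1) (mul_one 1)
    (by rw [rho_te_single h0, one_smul]) 1 1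
  rwa [one_smul] at h

/-- commuting in `PSp` implies commuting in `Sp` -/
theorem hcent (h0 : (i0 : ℕ) = 0) (h1 : (i1 : ℕ) = 1) {u : Fˣ} (hu : 2 * (m - 1) < orderOf u)
    {g : Matrix.symplecticGroup (Fin m) F}
    (hge : Commute (QuotientGroup.mk g : PSp m F) (QuotientGroup.mk (te m F u)))
    (hgv : Commute (QuotientGroup.mk g : PSp m F)
      (QuotientGroup.mk (transv (Pi.single (Sum.inl i0) 1) (1 : F)))) :
    Commute g (te m F u) ∧ Commute g (transv (Pi.single (Sum.inl i0) 1) (1 : F)) := by
  have hgne : ∀ x : Fin m ⊕ Fin m → F, x ≠ 0 → rho m F g x ≠ 0 := by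
    intro x hx h
    apply hx
    have h2 : rho m F g 0 = 0 := by
      rw [rho_apply, Matrix.mulVec_zero]
    exact (rho m F g).injective (h.trans h2.symm)
  have hs1 : ∀ j : Fin m ⊕ Fin m, (Pi.single j 1 : Fin m ⊕ Fin m → F) ≠ 0 := by
    intro j h
    have := congrFun h j
    rw [Pi.single_eq_same] at this
    exact one_ne_zero this
  -- the torus element
  have hc1 : Commute g (te m F u) := by
    obtain ⟨a, ha⟩ := exists_smul (A := g * te m F u) (B := te m F u * g) hge
    have haa : a * a = 1 := by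
      have h2 := sympForm_rho (te m F u * g) (Pi.single (Sum.inr i0) 1) (Pi.single (Sum.inl i0) 1)
      rw [ha, ha, sympForm_smul_left, sympForm_smul_right, sympForm_rho, sympForm_single_inr_left,
        Pi.single_eq_same, mul_one] at h2
      exact h2
    have h3 := ha (Pi.single (Sum.inl i0) 1)
    rw [map_mul, map_mul, Equiv.Perm.mul_apply, Equiv.Perm.mul_apply, rho_te_single h0] at h3
    obtain ⟨l, hl⟩ : ∃ l, rho m F g (Pi.single (Sum.inl i0) 1) l ≠ 0 := by
      by_contra hcon
      push Not at hcon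
      exact hgne _ (hs1 _) (funext hcon)
    have h4 := congrFun h3 l
    rw [rho_te, Pi.smul_apply, smul_eq_mul] at h4
    have h5 : ((u ^ kz l : Fˣ) : F) = a := mul_right_cancel₀ hl h4
    have h6 : u ^ (kz l + kz l) = 1 := by
      apply Units.ext
      rw [zpow_add, Units.val_mul, h5, haa, Units.val_one]
    have h7 := zpow_eq_one_iff hu (by
      have := natAbs_kz l
      omega) h6
    have h8 : kz l = 0 := by omega
    rw [h8, zpow_zero, Units.val_one] at h5
    apply rho_injective
    ext1 x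
    rw [ha, ← h5, one_smul]
  refine ⟨hc1, ?_⟩
  have hbd := bd_of_comm hu hc1
  obtain ⟨b, hb⟩ := exists_smul (A := g * transv (Pi.single (Sum.inl i0) 1) (1 : F))
    (B := transv (Pi.single (Sum.inl i0) 1) (1 : F) * g) hgv
  have h2 := hb (Pi.single (Sum.inl i1) 1)
  rw [map_mul, map_mul, Equiv.Perm.mul_apply, Equiv.Perm.mul_apply, rho_transv, rho_transv,
    sympForm_single_inl_right, sympForm_single_inl_right] at h2
  have h3 : rho m F g (Pi.single (Sum.inl i1) 1) (Sum.inr i0) = 0 := by
    have h4 : rho m F g (Pi.single (Sum.inl i1) 1) (Sum.inr i0) =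
        (g : Matrix (Fin m ⊕ Fin m) (Fin m ⊕ Fin m) F) (Sum.inr i0) (Sum.inl i1) := by
      rw [rho_apply, Matrix.mulVec_single_one]
      rfl
    rw [h4]
    by_contra h5
    have h6 := hbd _ _ h5
    simp [kz, h0, h1] at h6
  rw [h3, Pi.single_eq_of_ne (by simp), mul_zero, zero_smul, add_zero, add_zero] at h2
  have hb1 : b = 1 := by
    obtain ⟨l, hl⟩ : ∃ l, rho m F g (Pi.single (Sum.inl i1) 1) l ≠ 0 := by
      by_contra hcon
      push Not at hcon
      exact hgne _ (hs1 _) (funext hcon)
    have h4 := congrFun h2 l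
    rw [Pi.smul_apply, smul_eq_mul] at h4
    exact (mul_right_cancel₀ hl (h4.symm.trans (one_mul _).symm))
  apply rho_injective
  ext1 x
  rw [hb, hb1, one_smul]

/-! ### Elements normalising the centralizer -/

theorem conj_comm {G : Type*} [Group G] {w g x : G} : Commute (w * g * w⁻¹) x ↔ Commute g (w⁻¹ * x * w) := by
  constructor
  · intro h
    have h1 : w * g * w⁻¹ * x = x * (w * g * w⁻¹) := h
    show g * (w⁻¹ * x * w) = w⁻¹ * x * w * g
    calc g * (w⁻¹ * x * w) = w⁻¹ * (w * g * w⁻¹ * x) * w := by group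
      _ = w⁻¹ * (x * (w * g * w⁻¹)) * w := by rw [h1]
      _ = w⁻¹ * x * w * g := by group
  · intro h
    have h1 : g * (w⁻¹ * x * w) = w⁻¹ * x * w * g := h
    show w * g * w⁻¹ * x = x * (w * g * w⁻¹)
    calc w * g * w⁻¹ * x = w * (g * (w⁻¹ * x * w)) * w⁻¹ := by group
      _ = w * (w⁻¹ * x * w * g) * w⁻¹ := by rw [h1]
      _ = x * (w * g * w⁻¹) := by group

/-- the diagonal element of order prime to the characteristic in the first plane -/
theorem exists_w_torus (h0 : (i0 : ℕ) = 0) {u : Fˣ} {p : ℕ} (hp : p.Prime) (hp2 : p ≠ 2)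
    (hu : 2 * (m - 1) < orderOf u) {c : Fˣ} (hc : orderOf c = p) :
    ∃ w : Matrix.symplecticGroup (Fin m) F,
      (∀ g, Commute g (te m F u) → Commute g (transv (Pi.single (Sum.inl i0) 1) (1 : F)) →
        Commute (w * g * w⁻¹) (te m F u) ∧ Commute (w * g * w⁻¹) (transv (Pi.single (Sum.inl i0) 1) (1 : F))) ∧
      ¬ (Commute w (te m F u) ∧ Commute w (transv (Pi.single (Sum.inl i0) 1) (1 : F))) ∧
      (Commute (w ^ p) (te m F u) ∧ Commute (w ^ p) (transv (Pi.single (Sum.inl i0) 1) (1 : F))) := by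
  set w : Matrix.symplecticGroup (Fin m) F := dg fun i => if (i : ℕ) = 0 then c else 1 with hw
  have hwe : rho m F w (Pi.single (Sum.inl i0) 1) = (c : F) • (Pi.single (Sum.inl i0) 1) := by
    funext l
    rw [hw, rho_dg, Pi.smul_apply, smul_eq_mul]
    by_cases hl : l = Sum.inl i0
    · rw [hl, Sum.elim_inl, if_pos h0]
    · rw [Pi.single_eq_of_ne hl, mul_zero, mul_zero]
  have hpw : w ^ p = 1 := by
    apply rho_injective
    have h1 : ∀ (k : ℕ) (x : Fin m ⊕ Fin m → F) (j), rho m F (w ^ k) x j =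
        (Sum.elim (fun i : Fin m => (((if (i : ℕ) = 0 then c else 1 : Fˣ)) : F))
          (fun i : Fin m => ((((if (i : ℕ) = 0 then c else 1) : Fˣ)⁻¹ : Fˣ) : F)) j) ^ k * x j := by
      intro k
      induction k with
      | zero => intro x j; rw [pow_zero, map_one, pow_zero, one_mul]; rfl
      | succ k ih =>
        intro x j
        rw [pow_succ, map_mul, Equiv.Perm.mul_apply, ih, hw, rho_dg, pow_succ, mul_assoc]
    ext1 x
    funext j
    rw [h1, map_one, Equiv.Perm.one_apply]
    have hcp : (c : F) ^ p = 1 := by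
      rw [← Units.val_pow_eq_pow_val, ← hc, pow_orderOf_eq_one, Units.val_one]
    rcases j with j | j
    · simp only [Sum.elim_inl]
      split_ifs
      · rw [hcp, one_mul]
      · rw [Units.val_one, one_pow, one_mul]
    · simp only [Sum.elim_inr]
      split_ifs
      · rw [Units.val_inv_eq_inv_val, inv_pow, hcp, inv_one, one_mul]
      · rw [inv_one, Units.val_one, one_pow, one_mul]
  refine ⟨w, ?_, ?_, ?_⟩
  · intro g h1 h2
    have hcomm : Commute w (te m F u) := by
      apply rho_injective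
      rw [map_mul, map_mul]
      ext1 x
      funext j
      rw [Equiv.Perm.mul_apply, Equiv.Perm.mul_apply, hw, rho_dg, rho_te, rho_te, rho_dg]
      ring
    constructor
    · rw [conj_comm]
      have : w⁻¹ * te m F u * w = te m F u := by
        rw [mul_assoc, ← hcomm.eq, inv_mul_cancel_left]
      rwa [this]
    · rw [conj_comm]
      obtain ⟨l, hl, hgl, -⟩ := eig_of_comm h2
      have h3 : w⁻¹ * transv (Pi.single (Sum.inl i0) 1) (1 : F) * w =
          transv ((((c⁻¹ : Fˣ) : F)) • (Pi.single (Sum.inl i0) 1 : Fin m ⊕ Fin m → F)) (1 : F) := by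
        apply rho_injective
        rw [map_mul, map_mul, map_inv]
        ext1 x
        rw [Equiv.Perm.mul_apply, Equiv.Perm.mul_apply, rho_transv, rho_transv]
        apply (rho m F w).injective
        rw [perm_apply_inv_self, (isSemi_rho w).1, (isSemi_rho w).2.1, (isSemi_rho w).2.1, hwe,
          sympForm_smul_right]
        have h4 : sympForm m F (rho m F w x) (Pi.single (Sum.inl i0) 1) =
            ((c⁻¹ : Fˣ) : F) * sympForm m F x (Pi.single (Sum.inl i0) 1) := by
          have h5 := sympForm_rho w x (Pi.single (Sum.inl i0) 1)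
          rw [hwe, sympForm_smul_right] at h5
          rw [← h5, ← mul_assoc, Units.inv_mul, one_mul]
        rw [h4]
        simp only [RingEquiv.refl_apply, smul_smul]
        congr 2
        have h6 : ((c⁻¹ : Fˣ) : F) * (c : F) = 1 := Units.inv_mul _
        linear_combination (-(((c⁻¹ : Fˣ) : F)) * sympForm m F x (Pi.single (Sum.inl i0) 1)) * h6
      rw [h3]
      exact comm_transv hl hgl _ _
  · rintro ⟨-, h⟩
    obtain ⟨l, hl, hgl, -⟩ := eig_of_comm h
    rw [hwe] at hgl
    have h1 := congrFun hgl (Sum.inl i0)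
    rw [Pi.smul_apply, Pi.smul_apply, Pi.single_eq_same, smul_eq_mul, smul_eq_mul, mul_one, mul_one] at h1
    rw [← h1] at hl
    have h2 : c ^ 2 = 1 := Units.ext (by rw [pow_two, Units.val_mul, hl, Units.val_one])
    have h3 := orderOf_dvd_of_pow_eq_one h2
    rw [hc] at h3
    exact hp2 ((Nat.prime_dvd_prime_iff_eq hp Nat.prime_two).1 h3)
  · rw [hpw]
    exact ⟨Commute.one_left _, Commute.one_left _⟩

/-- the swap in the plane `i1` -/
def swp (i1 : Fin m) : Equiv.Perm (Fin m ⊕ Fin m → F) where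
  toFun x := Sum.elim (fun i => if i = i1 then x (Sum.inr i1) else x (Sum.inl i))
    (fun i => if i = i1 then - x (Sum.inl i1) else x (Sum.inr i))
  invFun x := Sum.elim (fun i => if i = i1 then - x (Sum.inr i1) else x (Sum.inl i))
    (fun i => if i = i1 then x (Sum.inl i1) else x (Sum.inr i))
  left_inv x := by
    funext j
    rcases j with j | j
    · by_cases h : j = i1 <;> simp [h]
    · by_cases h : j = i1 <;> simp [h]
  right_inv x := by
    funext j
    rcases j with j | j
    · by_cases h : j = i1 <;> simp [h]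
    · by_cases h : j = i1 <;> simp [h]

theorem swp_inl (i1 : Fin m) (x : Fin m ⊕ Fin m → F) (i : Fin m) :
    swp i1 x (Sum.inl i) = if i = i1 then x (Sum.inr i1) else x (Sum.inl i) := rfl

theorem swp_inr (i1 : Fin m) (x : Fin m ⊕ Fin m → F) (i : Fin m) :
    swp i1 x (Sum.inr i) = if i = i1 then - x (Sum.inl i1) else x (Sum.inr i) := rfl

theorem exists_swap (i1 : Fin m) : ∃ s : Matrix.symplecticGroup (Fin m) F, rho m F s = swp i1 := by
  apply exists_rho_eq
  · intro x y
    funext j
    rcases j with j | j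
    · rw [Pi.add_apply, swp_inl, swp_inl, swp_inl]
      split_ifs <;> rfl
    · rw [Pi.add_apply, swp_inr, swp_inr, swp_inr]
      split_ifs
      · rw [Pi.add_apply]; ring
      · rfl
  · intro a x
    funext j
    rcases j with j | j
    · rw [Pi.smul_apply, swp_inl, swp_inl]
      split_ifs <;> rfl
    · rw [Pi.smul_apply, swp_inr, swp_inr]
      split_ifs
      · rw [Pi.smul_apply, smul_eq_mul, smul_eq_mul]; ring
      · rfl
  · intro x y
    rw [sympForm_eq_sum, sympForm_eq_sum]
    refine Finset.sum_congr rfl fun i _ => ?_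
    rw [swp_inl, swp_inl, swp_inr, swp_inr]
    split_ifs with h
    · rw [h]; ring
    · ring

theorem exists_w_swap (h0 : (i0 : ℕ) = 0) (h1 : (i1 : ℕ) = 1) {u : Fˣ}
    (hu : 2 * (m - 1) < orderOf u) :
    ∃ w : Matrix.symplecticGroup (Fin m) F,
      (∀ g, Commute g (te m F u) → Commute g (transv (Pi.single (Sum.inl i0) 1) (1 : F)) →
        Commute (w * g * w⁻¹) (te m F u) ∧ Commute (w * g * w⁻¹) (transv (Pi.single (Sum.inl i0) 1) (1 : F))) ∧
      ¬ (Commute w (te m F u) ∧ Commute w (transv (Pi.single (Sum.inl i0) 1) (1 : F))) ∧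
      (Commute (w ^ 2) (te m F u) ∧ Commute (w ^ 2) (transv (Pi.single (Sum.inl i0) 1) (1 : F))) := by
  obtain ⟨w, hw⟩ := exists_swap (F := F) i1
  have h01 : i0 ≠ i1 := fun h => by rw [h, h1] at h0; exact one_ne_zero h0
  -- the transvection
  have hwv : Commute w (transv (Pi.single (Sum.inl i0) 1) (1 : F)) := by
    have h := comm_transv (g := w) (e := Pi.single (Sum.inl i0) 1) (l := 1) (mul_one 1) (by
      rw [hw, one_smul]
      funext j
      rcases j with j | j
      · rw [swp_inl]
        split_ifs with hj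
        · rw [hj, Pi.single_eq_of_ne (by simp), Pi.single_eq_of_ne (by simpa using h01.symm)]
        · rfl
      · rw [swp_inr]
        split_ifs with hj
        · rw [hj, Pi.single_eq_of_ne (by simpa using h01.symm), Pi.single_eq_of_ne (by simp), neg_zero]
        · rfl) 1 1
    rwa [one_smul] at h
  -- the torus element
  have hconj : w⁻¹ * te m F u * w = dg fun i => if i = i1 then (u ^ (i : ℕ))⁻¹ else u ^ (i : ℕ) := by
    apply rho_injective
    rw [map_mul, map_mul, map_inv]
    ext1 x
    rw [Equiv.Perm.mul_apply, Equiv.Perm.mul_apply]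
    apply (rho m F w).injective
    rw [perm_apply_inv_self, hw]
    funext j
    rw [rho_te]
    rcases j with j | j
    · rw [swp_inl, swp_inl, rho_dg, rho_dg]
      by_cases hj : j = i1
      · simp [hj, kz]
      · simp [hj, kz]
    · rw [swp_inr, swp_inr, rho_dg, rho_dg]
      by_cases hj : j = i1
      · simp [hj, kz]
      · simp [hj, kz]
  refine ⟨w, ?_, ?_, ?_, ?_⟩
  · intro g hg1 hg2
    constructor
    · rw [conj_comm, hconj]
      refine comm_of_bd (bd_of_comm hu hg1) fun i hi => ?_
      have : i ≠ i1 := fun h => by rw [h, h1] at hi; exact one_ne_zero hi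
      rw [if_neg this, hi, pow_zero]
    · rw [conj_comm]
      have : w⁻¹ * transv (Pi.single (Sum.inl i0) 1) (1 : F) * w = transv (Pi.single (Sum.inl i0) 1) (1 : F) := by
        rw [mul_assoc, ← hwv.eq, inv_mul_cancel_left]
      rwa [this]
  · rintro ⟨h, -⟩
    have h2 := congrArg (fun A => rho m F A (Pi.single (Sum.inr i1) 1) (Sum.inl i1)) h.eq
    simp only [map_mul, Equiv.Perm.mul_apply] at h2
    rw [rho_te, hw, swp_inl, swp_inl, if_pos rfl, if_pos rfl, rho_te, Pi.single_eq_same] at h2
    have h3 : u ^ (kz (Sum.inl i1 : Fin m ⊕ Fin m) - kz (Sum.inr i1 : Fin m ⊕ Fin m)) = 1 := by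
      rw [zpow_sub]
      have h4 : u ^ kz (Sum.inr i1 : Fin m ⊕ Fin m) = u ^ kz (Sum.inl i1 : Fin m ⊕ Fin m) :=
        Units.ext (by simpa using h2)
      rw [h4, mul_inv_cancel]
    have hm : 2 ≤ m := by have := i1.2; omega
    have h4 := zpow_eq_one_iff hu (by
      have := natAbs_kz (Sum.inl i1 : Fin m ⊕ Fin m)
      have := natAbs_kz (Sum.inr i1 : Fin m ⊕ Fin m)
      omega) h3
    simp [kz, h1] at h4
  · have hsw : ∀ (x : Fin m ⊕ Fin m → F) (j : Fin m ⊕ Fin m), swp i1 (swp i1 x) j =
        (if j = Sum.inl i1 ∨ j = Sum.inr i1 then -1 else 1) * x j := by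
      intro x j
      rcases j with j | j
      · by_cases hj : j = i1
        · rw [swp_inl, if_pos hj, swp_inr, if_pos rfl, if_pos (Or.inl (by rw [hj])), hj]; ring
        · rw [swp_inl, if_neg hj, swp_inl, if_neg hj, if_neg (by simp [hj]), one_mul]
      · by_cases hj : j = i1
        · rw [swp_inr, if_pos hj, swp_inl, if_pos rfl, if_pos (Or.inr (by rw [hj])), hj]; ring
        · rw [swp_inr, if_neg hj, swp_inr, if_neg hj, if_neg (by simp [hj]), one_mul]
    apply rho_injective
    rw [map_mul, map_mul, map_pow, hw, pow_two]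
    ext1 x
    funext j
    rw [Equiv.Perm.mul_apply, Equiv.Perm.mul_apply, Equiv.Perm.mul_apply, Equiv.Perm.mul_apply, hsw, rho_te, rho_te,
      hsw]
    ring
  · exact hwv.pow_left 2

/-- no elements of order `p` in the centralizer -/
theorem eq_one_of_pow [Fintype F] (h0 : (i0 : ℕ) = 0) {u : Fˣ} (hu : 2 * (m - 1) < orderOf u) {p : ℕ}
    (hp : p.Prime) (hp2 : p ≠ 2) (hpF : (p : F) ≠ 0) (hpq : p.Coprime (Fintype.card F - 1))
    {g : Matrix.symplecticGroup (Fin m) F} (hg1 : Commute g (te m F u))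
    (hg2 : Commute g (transv (Pi.single (Sum.inl i0) 1) (1 : F))) (hgp : g ^ p = 1) : g = 1 := by
  have hbd := bd_of_comm hu hg1
  obtain ⟨l, hl, hgl, hgr⟩ := eig_of_comm hg2
  -- scalars
  have hsc : ∀ (c : F) (x : Fin m ⊕ Fin m → F), x ≠ 0 → rho m F g x = c • x → c ^ p = 1 := by
    intro c x hx h
    have h1 : ∀ k : ℕ, rho m F (g ^ k) x = c ^ k • x := by
      intro k
      induction k with
      | zero => rw [pow_zero, map_one, pow_zero, one_smul]; rfl
      | succ k ih =>
        rw [pow_succ', map_mul, Equiv.Perm.mul_apply, ih, (isSemi_rho g).2.1, h]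
        simp only [RingEquiv.refl_apply, smul_smul]
        rw [pow_succ]
    have h2 := h1 p
    rw [hgp, map_one, Equiv.Perm.one_apply] at h2
    have h3 : (1 - c ^ p) • x = 0 := by rw [sub_smul, one_smul, ← h2, sub_self]
    rcases smul_eq_zero.1 h3 with h4 | h4
    · exact (sub_eq_zero.1 h4).symm
    · exact absurd h4 hx
  have hone : ∀ c : F, c ^ p = 1 → c = 1 := by
    intro c hc
    have hc0 : c ≠ 0 := by
      rintro rfl
      rw [zero_pow hp.ne_zero] at hc
      exact zero_ne_one hc
    have h1 := FiniteField.pow_card_sub_one_eq_one c hc0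
    have h2 : c ^ Nat.gcd p (Fintype.card F - 1) = 1 := by
      rw [← orderOf_dvd_iff_pow_eq_one]
      exact Nat.dvd_gcd (orderOf_dvd_of_pow_eq_one hc) (orderOf_dvd_of_pow_eq_one h1)
    rwa [hpq, pow_one] at h2
  have hs1 : ∀ j : Fin m ⊕ Fin m, (Pi.single j 1 : Fin m ⊕ Fin m → F) ≠ 0 := by
    intro j h
    have := congrFun h j
    rw [Pi.single_eq_same] at this
    exact one_ne_zero this
  have hent : ∀ i j, rho m F g (Pi.single j 1) i = (g : Matrix (Fin m ⊕ Fin m) (Fin m ⊕ Fin m) F) i j := by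
    intro i j
    rw [rho_apply, Matrix.mulVec_single_one]
    rfl
  -- the coordinate vectors of the other planes are fixed
  have hfix : ∀ j : Fin m ⊕ Fin m, kz j ≠ 0 → rho m F g (Pi.single j 1) = Pi.single j 1 := by
    intro j hj
    have h1 : rho m F g (Pi.single j 1) =
        ((g : Matrix (Fin m ⊕ Fin m) (Fin m ⊕ Fin m) F) j j) • (Pi.single j 1 : Fin m ⊕ Fin m → F) := by
      funext i
      rw [hent, Pi.smul_apply, smul_eq_mul]
      by_cases hij : i = j
      · rw [hij, Pi.single_eq_same, mul_one]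
      · rw [Pi.single_eq_of_ne hij, mul_zero]
        by_contra h2
        have h3 := hbd i j h2
        apply hij
        rcases i with i | i <;> rcases j with j | j
        · congr 1; apply Fin.ext; simpa [kz] using h3
        · simp only [kz, Sum.elim_inl, Sum.elim_inr] at h3 hj; omega
        · simp only [kz, Sum.elim_inl, Sum.elim_inr] at h3 hj; omega
        · congr 1; apply Fin.ext; simpa [kz] using h3
    rw [h1, hone _ (hsc _ _ (hs1 j) h1), one_smul]
  have hl1 : l = 1 := hone _ (hsc _ _ (hs1 _) hgl)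
  -- the vector `f₀`
  have hf0 : ∃ b : F, rho m F g (Pi.single (Sum.inr i0) 1) =
      Pi.single (Sum.inr i0) 1 + b • (Pi.single (Sum.inl i0) 1 : Fin m ⊕ Fin m → F) := by
    refine ⟨rho m F g (Pi.single (Sum.inr i0) 1) (Sum.inl i0), ?_⟩
    funext i
    rw [Pi.add_apply, Pi.smul_apply, smul_eq_mul]
    by_cases h2 : i = Sum.inr i0
    · rw [h2, hgr, hl1, Pi.single_eq_same, Pi.single_eq_of_ne (by simp), mul_zero, add_zero]
    · by_cases h3 : i = Sum.inl i0
      · rw [h3, Pi.single_eq_same, Pi.single_eq_of_ne (by simp), mul_one, zero_add]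
      · rw [Pi.single_eq_of_ne h2, Pi.single_eq_of_ne h3, mul_zero, add_zero, hent]
        by_contra h4
        have h5 := hbd _ _ h4
        rcases i with i | i
        · apply h3
          congr 1
          apply Fin.ext
          simp only [kz, Sum.elim_inl, Sum.elim_inr] at h5
          omega
        · apply h2
          congr 1
          apply Fin.ext
          simp only [kz, Sum.elim_inr] at h5
          omega
  obtain ⟨b, hb⟩ := hf0
  have hb0 : b = 0 := by
    have h1 : ∀ k : ℕ, rho m F (g ^ k) (Pi.single (Sum.inr i0) 1) =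
        Pi.single (Sum.inr i0) 1 + ((k : F) * b) • (Pi.single (Sum.inl i0) 1 : Fin m ⊕ Fin m → F) := by
      intro k
      induction k with
      | zero => rw [pow_zero, map_one, Nat.cast_zero, zero_mul, zero_smul, add_zero]; rfl
      | succ k ih =>
        rw [pow_succ', map_mul, Equiv.Perm.mul_apply, ih, (isSemi_rho g).1, (isSemi_rho g).2.1, hb, hgl, hl1]
        simp only [RingEquiv.refl_apply, one_smul]
        rw [add_assoc, ← add_smul]
        congr 2
        push_cast
        ring
    have h2 := h1 p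
    rw [hgp, map_one, Equiv.Perm.one_apply] at h2
    have h3 := congrFun h2 (Sum.inl i0)
    rw [Pi.add_apply, Pi.smul_apply, smul_eq_mul, Pi.single_eq_same, mul_one] at h3
    rw [Pi.single_eq_of_ne (show (Sum.inl i0 : Fin m ⊕ Fin m) ≠ Sum.inr i0 by simp), zero_add] at h3
    exact (mul_eq_zero.1 h3.symm).resolve_left hpF
  have hall : ∀ j : Fin m ⊕ Fin m, rho m F g (Pi.single j 1) = Pi.single j 1 := by
    intro j
    by_cases hj : kz j = 0
    · rcases j with j | j
      · have : j = i0 := Fin.ext (by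
          simp only [kz, Sum.elim_inl] at hj
          omega)
        rw [this, hgl, hl1, one_smul]
      · have : j = i0 := Fin.ext (by
          simp only [kz, Sum.elim_inr] at hj
          omega)
        rw [this, hb, hb0, zero_smul, add_zero]
    · exact hfix j hj
  apply Subtype.ext
  ext i j
  rw [← hent, hall]
  show _ = (1 : Matrix (Fin m ⊕ Fin m) (Fin m ⊕ Fin m) F) i j
  rw [Matrix.one_apply, Pi.single_apply]

end transvection

end Cfsg.Agent.H189.XSp
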